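import Cfsg.Agent.H7.Mu4
import Cfsg.Agent.H8.Clos6

/-! Groups with central Sylow intersections. -/

set_option autoImplicit false
set_option linter.unusedSectionVars false

namespace Cfsg.Agent.H7.CI

open Subgroup H8 H2.SC WA Jk BS Mu
open GW (Cz mem_Cz)
open scoped commutatorElement MatrixGroups

universe u

variable {G : Type u} [Group G] [Finite G] {L L' O S T Z : Subgroup G} {x y : G}

theorem ci_of (h : ∀ S T : Sylow 2 G, S ≠ T → ∃ U : Sylow 2 G,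
    (S : Subgroup G) ⊓ (T : Subgroup G) ≤ (center (U : Subgroup G)).map (U : Subgroup G).subtype) : W.CI G := by
  have h' : ∀ S T : Subgroup G, IsSylowIn 2 S ⊤ → IsSylowIn 2 T ⊤ → S ≠ T →
      ∃ U, IsSylowIn 2 U ⊤ ∧ U ≤ centralizer ((S ⊓ T : Subgroup G) : Set G) := fun S T hS hT hne => by
    obtain ⟨U, hU⟩ := h hS.toSylowTop hT.toSylowTop fun e => hne (congrArg (fun P : Sylow 2 G => (P : Subgroup G)) e)
    refine ⟨U, isSylowIn_top U, fun u hu x hx => ?_⟩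
    obtain ⟨x, h1, rfl⟩ := hU hx
    exact (congrArg Subtype.val (mem_center_iff.mp h1 ⟨u, hu⟩)).symm
  intro S T hS hT hne x hx hx'
  by_contra hn
  obtain ⟨U, hU, h1⟩ := h' S T hS hT hne
  obtain ⟨U', h2, h3⟩ := exists_isSylowIn_ge (hS.pgroup.to_inf_left (K := Cz x)) inf_le_right
  have h4 : IsSylowIn 2 U' ⊤ := hU.of_card_ge h2.pgroup le_top
    ((hU.of_le (fun u hu => mem_Cz.mpr (h1 hu x ⟨hx, hx'⟩).symm) le_top).card_eq_card h2).le
  have h5 : ¬ S ≤ Cz x := fun e => hn fun y hy => (mem_Cz.mp (e hy)).symm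
  obtain ⟨V, hV, h7⟩ := h' S U' hS h4 fun e => h5 (e ▸ h2.le)
  rw [le_antisymm (inf_le_inf_left _ h2.le) (le_inf inf_le_left h3)] at h7
  obtain ⟨y, hy, h8⟩ := SetLike.exists_of_lt (lt_inf_normalizer_of_pgroup hS.pgroup (inf_lt_left.mpr h5))
  obtain ⟨W, hW, h9⟩ := W.exists_sylow_mem (W.pw_of_mem hS.pgroup hy.1) hy.2
  obtain ⟨k, hk, rfl⟩ := (hV.of_le (h7.trans (centralizer_le_normalizer _)) le_top).exists_cj_eq hW
  exact h8 ⟨hy.1, mem_Cz.mpr (cj_le_of_mem_normalizer (normalizer_le_normalizer_centralizer _ hk) h7 h9 x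
    ⟨hx, mem_Cz.mpr rfl⟩).symm⟩

theorem exists_gen2 (hS : IsPGroup 2 S) (h4 : ¬ Four S) : ∃ a ∈ S, ∃ b ∈ S, ∀ T : Subgroup G, a ∈ T → b ∈ T → S ≤ T := by
  rcases H5.cyclic_or_quaternion_of_unique_involution hS (uniq_ord hS h4) with hc | ⟨n, ⟨e⟩⟩
  · obtain ⟨⟨g, hg⟩, h1⟩ := IsCyclic.exists_generator (α := S)
    refine ⟨g, hg, g, hg, fun T h2 _ x hx => ?_⟩
    obtain ⟨i, hi⟩ := h1 ⟨x, hx⟩
    rw [← show g ^ i = x from congrArg Subtype.val hi]; exact zpow_mem h2 i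
  · refine ⟨_, (e.symm (.a 1)).2, _, (e.symm (.xa 0)).2, fun T h1 h2 x hx => ?_⟩
    have h3 : ∀ i, (e.symm (.a i) : G) ∈ T := fun i => by
      rw [← ZMod.natCast_zmod_val i, ← QuaternionGroup.a_one_pow, map_pow]; exact pow_mem h1 _
    rw [show x = e.symm (e ⟨x, hx⟩) by simp]
    rcases e ⟨x, hx⟩ with i | i
    · exact h3 i
    · rw [← zero_add i, ← QuaternionGroup.xa_mul_a, map_mul]; exact mul_mem h2 (h3 i)

theorem cent_aux (n : ℕ) : ∀ {G : Type u} [Group G] [Finite G], Nat.card G = n → ∀ O S Z : Subgroup G, O.Normal →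
    ¬ 2 ∣ Nat.card O → IsPGroup 2 S → Z ≤ centralizer (S : Set G) →
    (∀ x ∈ S, x ∉ Z → O ⊓ centralizer {x} ≤ centralizer (S : Set G)) →
    (∀ a ∈ S, ∀ b ∈ S, ∃ T : Subgroup G, a ∈ T ∧ b ∈ T ∧ Z ≤ T ∧ ¬ S ≤ T) → O ≤ centralizer (S : Set G) := by
  induction n using Nat.strong_induction_on with
  | _ n ih =>
  intro G _ _ hn O S Z _ hO hS hZ h1 h2
  obtain ⟨a, ha, b, hb, ia, ib, hne, hc⟩ : Four S := by_contra fun h4 => by
    obtain ⟨a, ha, b, hb, h3⟩ := exists_gen2 hS h4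
    obtain ⟨T, h5, h6, -, h7⟩ := h2 a ha b hb
    exact h7 (h3 T h5 h6)
  have hr : GW.Refl a b := ⟨Iv.ord ib, hc.symm, hne.symm⟩
  have hV := GW.four_le.mpr ⟨ha, hb⟩
  have sq := fun x => GW.four_sq (x := x) (Iv.ord ia) hr
  refine (CopAct.of_pgroup (hS.to_le hV) hO le_normalizer_of_normal).le_of_not_isCyclic
    ⟨⟨fun x y => Subtype.ext (BS.comm_of_sq sq x.2 y.2)⟩⟩
    (not_cyclic_of_four ⟨a, GW.left_mem_four a b, b, GW.right_mem_four a b, ia, ib, hne, hc⟩) fun v hv v1 => ?_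
  by_cases hz : v ∈ Z
  swap
  · exact h1 v (hV hv) hz
  have hSC : S ≤ centralizer {v} := fun s hs => mem_Cz.mpr (hZ hz s hs)
  have : ((zpowers v).subgroupOf (centralizer {v})).Normal := normal_subgroupOf_of_le_normalizer
    ((centralizer_zpowers v).ge.trans (centralizer_le_normalizer _))
  let π := QuotientGroup.mk' ((zpowers v).subgroupOf (centralizer {v}))
  have hπ : ∀ x, π x = 1 → (x : G) ∈ zpowers v := fun x e => (QuotientGroup.eq_one_iff x).mp e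
  have key : ∀ c ∈ O.subgroupOf (centralizer {v}), ∀ x, π x * π c = π c * π x → (x : G) * c = c * x := fun c hc x e =>
    commutatorElement_eq_one_iff_mul_comm.mp (mem_bot.mp (W.odd_inf_two hO hS ▸ mem_inf.mpr
      ⟨mul_mem ((inferInstance : O.Normal).conj_mem _ hc _) (inv_mem hc), zpowers_le.mpr (hV hv) (hπ ⁅x, c⁆ (by
        rw [map_commutatorElement, commutatorElement_eq_one_iff_mul_comm.mpr e]))⟩))
  have := ih _ (by
      rw [← hn]
      refine lt_of_lt_of_le ?_ (card_le_card_group (centralizer {v}))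
      rw [card_eq_card_quotient_mul_card_subgroup ((zpowers v).subgroupOf (centralizer {v}))]
      exact lt_mul_of_one_lt_right Nat.card_pos ((one_lt_card_iff_ne_bot _).2 fun e =>
        v1 (congrArg Subtype.val (e.le (show (⟨v, mem_Cz.mpr rfl⟩ : centralizer {v}) ∈ _ from mem_zpowers v))))) rfl
    ((O.subgroupOf _).map π) ((S.subgroupOf _).map π) ((Z.subgroupOf _).map π)
    (Normal.map inferInstance _ (QuotientGroup.mk'_surjective _))
    (fun e => hO ((e.trans (card_map_dvd _ _)).trans (by rw [L0.card_subgroupOf]; exact card_dvd_of_le inf_le_left)))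
    ((pgroup_subgroupOf hS _).map π) (by
      rintro _ ⟨z, hz, rfl⟩ _ ⟨s, hs, rfl⟩
      rw [← map_mul, ← map_mul, show s * z = z * s from Subtype.ext (hZ hz s hs)]) (by
      rintro _ ⟨x, hx, rfl⟩ h3 _ ⟨⟨c, hc, rfl⟩, h4⟩ _ ⟨s, hs, rfl⟩
      rw [← map_mul, ← map_mul, show s * c = c * s from Subtype.ext (h1 x hx (fun e => h3 ⟨x, e, rfl⟩)
        ⟨hc, mem_Cz.mpr (key c hc x (mem_Cz.mp h4).symm).symm⟩ s hs)]) (by
      rintro _ ⟨a, ha, rfl⟩ _ ⟨b, hb, rfl⟩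
      obtain ⟨T, h3, h4, h5, h6⟩ := h2 a ha b hb
      refine ⟨(T.subgroupOf _).map π, ⟨a, h3, rfl⟩, ⟨b, h4, rfl⟩, map_mono fun _ e => h5 e, fun e => h6 fun s hs => ?_⟩
      obtain ⟨t, ht, e1⟩ := e ⟨⟨s, hSC hs⟩, hs, rfl⟩
      exact (Subgroup.mul_mem_cancel_left T (T.inv_mem (x := t) ht)).mp (zpowers_le.mpr (h5 hz)
        (hπ (t⁻¹ * ⟨s, hSC hs⟩) (by rw [map_mul, map_inv, e1, inv_mul_cancel]))))
  exact fun c hc s hs => key ⟨c, hc.2⟩ hc.1 ⟨s, hSC hs⟩ (this ⟨_, hc.1, rfl⟩ _ ⟨_, hs, rfl⟩)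

variable (h : W.CI G)
include h

theorem ci_sub (H : Subgroup G) : W.CI H := fun S T hS hT hne x h1 h2 y hy => by
  obtain ⟨S, hS', rfl⟩ := exists_syl_ge hS
  obtain ⟨T, hT', rfl⟩ := exists_syl_ge hT
  exact Subtype.ext (h S T hS' hT' (fun e => hne (e ▸ rfl)) x h1 h2 y hy)

theorem ci_map {G' : Type u} [Group G'] [Finite G'] (f : G →* G') (hf : Function.Surjective f) : W.CI G' :=
  fun S T hS hT hne x h1 h2 y hy => by
  obtain ⟨S, hS', -, rfl⟩ := exists_lift_ge f hf hS IsPGroup.of_bot bot_le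
  obtain ⟨x, hx, rfl⟩ := h1
  obtain ⟨y, hy, rfl⟩ := hy
  obtain ⟨T, hT', h3, rfl⟩ := exists_lift_ge f hf hT (hS'.pgroup.to_le (zpowers_le.mpr hx)) (zpowers_le.mpr h2)
  rw [← map_mul, h S T hS' hT' (fun e => hne (e ▸ rfl)) x hx (h3 (mem_zpowers x)) y hy, map_mul]

theorem ci_typ (hGS : GSh.{u}) [IsSimpleGroup G] (hG : ¬ IsMulCommutative G) : W.Typ G := by
  obtain ⟨S, hS⟩ := exists_isSylowIn 2 (⊤ : Subgroup G)
  rcases hGS _ G (Nat.lt_succ_self _) hG (omZ S) (GS.SC.of_sylow hS (omZ_le S) (fun a ha => ha.2.1)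
    fun a ha g _ hg => by
      by_cases e : S = cj g S
      · rw [e, ← cj_omZ]; exact conj_mem_cj g ha
      · exact ⟨hg, by rw [conj_mul, ha.2.1]; simp,
          fun s hs => (h S _ hS (syl_cj hS g) e _ hg (conj_mem_cj g ha.1) s hs).symm⟩)
    (omZ_ne_bot hS.pgroup (sylow_ne_bot hG hS)) with h1 | h1 | h1
  · exact Or.inl ⟨_, h1⟩
  · exact Or.inr (Or.inl fun T hT => (hT.card_eq_card h1.1).trans h1.2)
  · exact Or.inr (Or.inr h1.2)

theorem cent_le (hL : IsComponent L) (hS : IsSylowIn 2 S ⊤) (hx : x ∈ S) (hc : x ∈ centralizer (L : Set G)) (hy : y ∈ S) :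
    x * y = y * x := by
  obtain ⟨k, hk, -, h2⟩ := exists_cj_ne hL hS
  exact h S _ hS (syl_cj hS k) h2.symm x hx (mem_cj_of_comm hx (hc k hk)) y hy

variable (hGS : GSh.{u})
include hGS

section normal
variable [L.Normal] (q : IsQuasisimple L)
include q

theorem k_typ : W.Typ (L.map (pc L)) :=
  have := k_simple q
  ci_typ (ci_sub (ci_map h _ pc_surj) _) hGS (k_nc q)

theorem le_k {T : Subgroup (G ⧸ centralizer (L : Set G))} (hT : IsSylowIn 2 T ⊤) : T ≤ L.map (pc L) :=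
  have := k_simple q
  le_of_typ (k_nc q) (k_cent q) (fun S T hS hT hle => by_contra fun hne => hne (hS.max T le_top hT.pgroup
    ((le_inf le_rfl (le_of_cent (k_nc q) (k_cent q) hS fun s hs x hx =>
      ci_map h _ pc_surj S T hS hT (Ne.symm hne) x hx.1 (hle hx) s hs)).trans hle))) (k_typ h hGS q) hT

theorem dec (hS : IsSylowIn 2 S ⊤) (hx : x ∈ S) : ∃ p ∈ S ⊓ L, p⁻¹ * x ∈ centralizer (L : Set G) := by
  have h1 := hS.map (pc L)
  rw [map_top_of_surjective _ pc_surj] at h1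
  obtain ⟨p, hp, e⟩ := (((syl_inf hS).map (pc L)).max _ (le_k h hGS q h1) h1.pgroup (map_mono inf_le_left)).le
    (mem_map_of_mem _ hx)
  exact ⟨p, hp, pc_eq_one.mp (by rw [map_mul, map_inv, e, inv_mul_cancel])⟩

theorem ab_of (hS : IsSylowIn 2 S ⊤) (hc : ∀ x ∈ S ⊓ L, ∀ y ∈ S ⊓ L, x * y = y * x) (hx : x ∈ S) (hy : y ∈ S) :
    x * y = y * x := by
  obtain ⟨p, hp, e⟩ := dec h hGS q hS hx
  obtain ⟨r, hr, e'⟩ := dec h hGS q hS hy
  have h1 := fun x hx hc y => cent_le (x := x) (y := y) h ⟨Normal.isSubnormal inferInstance, q⟩ hS hx hc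
  rw [← mul_inv_cancel_left p x]
  refine Commute.mul_left ?_ (h1 _ (mul_mem (inv_mem hp.1) hx) e y hy)
  rw [← mul_inv_cancel_left r y]
  exact Commute.mul_right (hc p hp r hr) (e' p hp.2)

theorem sem_k (hS : IsSylowIn 2 S ⊤) (hZ : L ⊓ centralizer (L : Set G) ≤ S) (hx : x ∈ S ⊓ L) (hy : y ∈ S ⊓ L)
    (hn : x * y ≠ y * x) : W.SEm (L.map (pc L)) := by
  have := k_simple q
  have hP := (syl_inf (K := L) hS).map (pc L)
  have m : ∀ x ∈ L, pc L x ∈ (S ⊓ L).map (pc L) → x ∈ S := by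
    rintro x hx ⟨p, hp, e⟩
    exact (Subgroup.mul_mem_cancel_left S (S.inv_mem hp.1)).mp (hZ ⟨L.mul_mem (L.inv_mem hp.2) hx,
      pc_eq_one.mp (by rw [map_mul, map_inv, e, inv_mul_cancel])⟩)
  refine (typ_cases (k_nc q) (k_typ h hGS q)).elim id fun tr => sem_of (k_nc q) hP ?_
  rintro _ ⟨w, hw, rfl⟩ w1 _ ⟨k, hk, rfl⟩ e
  by_contra h1
  have h2 := h S _ hS (syl_cj hS k) (fun e => h1 (le_normalizer_map _ ⟨k, cj_eq_self_iff.mp (by
      rw [cj_inf, ← e, cj_eq_self (le_normalizer hk)]), rfl⟩)) w hw.1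
    (mem_cj.mpr (m _ (mul_mem (mul_mem (inv_mem hk) hw.2) hk) ⟨w, hw, by
      rw [map_mul, map_mul, map_inv, mul_assoc, ← e, inv_mul_cancel_left]⟩))
  obtain ⟨⟨_, n, hn', rfl⟩, h3, e1⟩ := tr.2 _ (Clos.sylow_sub hP) ⟨_, w, hw.2, rfl⟩ ⟨w, hw, rfl⟩ ⟨_, x, hx.2, rfl⟩ ⟨x, hx, rfl⟩
    (fun e => w1 (congrArg Subtype.val e)) fun e => hn (pc_eq_one.mp (congrArg Subtype.val e) y hy.2).symm
  replace e1 : pc L n * pc L w * (pc L n)⁻¹ = pc L x := congrArg Subtype.val e1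
  have h4 := h2 _ (m (n⁻¹ * y * n) (mul_mem (mul_mem (inv_mem hn') hy.2) hn')
    (by rw [map_mul, map_mul, map_inv]; exact (mem_normalizer_iff''.mp h3 ⟨_, y, hy.2, rfl⟩).mp ⟨y, hy, rfl⟩))
  refine hn ?_
  rw [← mul_inv_cancel_left (n * w * n⁻¹) x]
  refine Commute.mul_left ?_ (pc_eq_one.mp (by rw [map_mul, map_inv, map_mul, map_mul, map_inv, e1, inv_mul_cancel]) y hy.2).symm
  calc n * w * n⁻¹ * y = n * (w * (n⁻¹ * y * n)) * n⁻¹ := by group
    _ = _ := by rw [h4]; group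

end normal

theorem ab_of_comp (hL : IsComponent L) (hS : IsSylowIn 2 S ⊤) (hc : S ≤ centralizer ((S ⊓ L : Subgroup G) : Set G))
    (hx : x ∈ S) (hy : y ∈ S) : x * y = y * x := by
  have q := (Comp.compOf hL).qs
  have h1 : S ≤ normalizer (L : Set G) := fun s hs => cj_eq_self_iff.mp (by_contra fun e =>
    QS.sylow_not_le_centralizer q (two_dvd_qs q) (syl_comp hL hS) fun x hx =>
      le_cent_of_ne hL (Comp.conj hL s) (Ne.symm e) (mem_cj_of_comm hx.2 (hc hs x hx).symm))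
  exact congrArg Subtype.val (ab_of (ci_sub h _) hGS ((QS.subgroupOf_iff le_normalizer).mpr q)
    (Clos.sylow_sub (hS.of_le h1 le_top)) (fun a ha b hb => Subtype.ext (hc hb.1 a ha)) (x := ⟨x, h1 hx⟩) (y := ⟨y, h1 hy⟩) hx hy)

theorem core7 (hO : pPrimeCore 2 G = ⊥) (hn : ∀ S : Subgroup G, IsSylowIn 2 S ⊤ → ¬ S.Normal ∧ ∃ x ∈ S, ∃ y ∈ S, x * y ≠ y * x) :
    ∃ (L : Subgroup G) (_ : L.Normal), IsComponent L ∧ W.SEm (L.map (pc L)) ∧
      (∀ x ∈ pCore 2 G, ∀ y ∈ pCore 2 G, x * y = y * x) ∧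
      ∀ S, IsSylowIn 2 S ⊤ → S ≤ L ⊔ pCore 2 G ∧ ∃ x ∈ S ⊓ L, ∃ y ∈ S ⊓ L, x * y ≠ y * x := by
  have hQ : IsPGroup 2 (pCore 2 G) := L0.pCore_isPGroup
  have hF := L0.fitting_eq_pCore_of_pPrimeCore_eq_bot hO
  have h1 : ∀ S, IsSylowIn 2 S ⊤ → S ≤ centralizer (pCore 2 G : Set G) := fun S hS s hs x hx => by
    obtain ⟨g, hg⟩ := not_forall.mp fun e => (hn S hS).1 (normalizer_eq_top_iff.mp ((eq_top_iff' _).mpr e))
    exact h S _ hS (syl_cj hS g) (fun e => hg (cj_eq_self_iff.mp e.symm)) x (le_syl hQ hS hx) (le_syl hQ (syl_cj hS g) hx) s hs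
  obtain ⟨S, hS⟩ := exists_isSylowIn 2 (⊤ : Subgroup G)
  obtain ⟨L, hL⟩ : ∃ L : Subgroup G, IsComponent L := by_contra fun h2 => (hn S hS).1 (by
    rw [le_antisymm ((h1 S hS).trans (centralizer_pCore_le_iff.mpr ⟨layer_eq_bot_iff.mpr (not_exists.mp h2), hO⟩))
      (le_syl hQ hS)]
    infer_instance)
  have hE := layer_eq hL fun L' hL' => by_contra fun e => by
    obtain ⟨x, hx, y, hy, h2⟩ := (hn S hS).2
    exact h2 (ab_of_comp h hGS hL' hS (fun s hs x hx => cent_le h hL hS hx.1 (le_cent_of_ne hL hL' (Ne.symm e) hx.2) hs) hx hy)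
  have : L.Normal := hE ▸ inferInstance
  have q := (Comp.compOf hL).qs
  have h2 : ∀ S, IsSylowIn 2 S ⊤ → ∃ x ∈ S ⊓ L, ∃ y ∈ S ⊓ L, x * y ≠ y * x := fun S hS => by
    by_contra! h2
    obtain ⟨x, hx, y, hy, h3⟩ := (hn S hS).2
    exact h3 (ab_of h hGS q hS h2 hx hy)
  obtain ⟨x, hx, y, hy, h3⟩ := h2 S hS
  refine ⟨L, this, hL, sem_k h hGS q hS ((hF ▸ Comp.center_le_fitting hL).trans (le_syl hQ hS)) hx hy h3,
    fun x hx y hy => h1 S hS (le_syl hQ hS hy) x hx, fun S hS => ⟨fun s hs => ?_, h2 S hS⟩⟩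
  obtain ⟨p, hp, e⟩ := dec h hGS q hS hs
  exact mul_inv_cancel_left p s ▸ mul_mem (mem_sup_left hp.2) (mem_sup_right (hF ▸
    centralizer_fitting_inf_centralizer_layer_le ⟨hF ▸ h1 S hS (mul_mem (inv_mem hp.1) hs), hE ▸ e⟩))

omit h in
theorem s3181 (hCI : ∀ S T : Sylow 2 G, S ≠ T → ∃ U : Sylow 2 G,
      (S : Subgroup G) ⊓ (T : Subgroup G) ≤ (Subgroup.center ↥(U : Subgroup G)).map (U : Subgroup G).subtype) :
    (Group.IsSolvable G ∧ Cfsg.PLengthLE 2 1 G) ∨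
    (∀ S : Sylow 2 G, IsMulCommutative ↥(S : Subgroup G)) ∨
    (∃ (N M : Subgroup G) (_ : N.Normal) (_ : M.Normal) (_ : (N.subgroupOf M).Normal), N < M ∧ Odd (Nat.card ↥N) ∧ Odd M.index ∧
      ∃ A L : Subgroup (↥M ⧸ N.subgroupOf M), IsMulCommutative ↥A ∧ IsPGroup 2 ↥A ∧
        Nonempty (↥L ≃* Matrix.SpecialLinearGroup (Fin 2) (ZMod 5)) ∧ (∀ a ∈ A, ∀ l ∈ L, a * l = l * a) ∧ A ⊔ L = ⊤) ∨
    (∃ (M : Subgroup G), M.Normal ∧ Odd M.index ∧ ∃ A L : Subgroup G, IsMulCommutative ↥A ∧ IsPGroup 2 ↥A ∧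
      ((Cfsg.IsInternalDirectProduct A L M ∧
          ((∃ (m : ℕ) (F : Type) (_ : Field F) (_ : Fintype F), 1 ≤ m ∧ Fintype.card F = 2 ^ (2 * m + 1) ∧
              Nonempty (↥L ≃* ↥(Cfsg.Lie.Sz F (2 ^ (m + 1))))) ∨
            (∃ (n : ℕ) (F : Type) (_ : Field F) (_ : Fintype F), 2 ≤ n ∧ Fintype.card F = 4 ^ n ∧
              (Nonempty (↥L ≃* Cfsg.PSU 3 F (2 ^ n)) ∨ Nonempty (↥L ≃* ↥(Cfsg.SU 3 F (2 ^ n))))))) ∨
        (A ≤ M ∧ L ≤ M ∧ (∀ a ∈ A, ∀ l ∈ L, a * l = l * a) ∧ A ⊔ L = M ∧ Group.IsPerfect ↥L ∧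
          Subgroup.center ↥L ≠ ⊥ ∧
          ∃ (F : Type) (_ : Field F) (_ : Fintype F), Fintype.card F = 8 ∧
            Nonempty (↥L ⧸ Subgroup.center ↥L ≃* ↥(Cfsg.Lie.Sz F 4))))) := by
  set O := pPrimeCore 2 G
  set π := QuotientGroup.mk' O
  have hπ : Function.Surjective π := QuotientGroup.mk'_surjective _
  have hO : ¬ 2 ∣ Nat.card O := L0.not_dvd_card_pPrimeCore
  have mO : ∀ x, π x = 1 ↔ x ∈ O := fun x => QuotientGroup.eq_one_iff x
  have h := ci_of hCI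
  have hH := ci_map h π hπ
  have inj : ∀ P : Subgroup G, IsPGroup 2 P → ∀ x ∈ P, π x = 1 → x = 1 := fun P hP x hx e =>
    mem_bot.mp (W.odd_inf_two hO hP ▸ mem_inf.mpr ⟨(mO x).mp e, hx⟩)
  have lift : ∀ T, IsSylowIn 2 T ⊤ → ∃ S, IsSylowIn 2 S ⊤ ∧ S.map π = T := fun T hT =>
    let ⟨S, h1, _, h2⟩ := exists_lift_ge π hπ hT IsPGroup.of_bot bot_le; ⟨S, h1, h2⟩
  have push : ∀ S, IsSylowIn 2 S ⊤ → IsSylowIn 2 (S.map π) ⊤ := fun S hS => map_top_of_surjective π hπ ▸ hS.map π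
  by_cases h1 : ∃ T : Subgroup (G ⧸ O), IsSylowIn 2 T ⊤ ∧ T.Normal
  · obtain ⟨T, hT, h1⟩ := h1
    obtain ⟨S, hS, rfl⟩ := lift T hT
    exact Or.inl ⟨Clos.solv_core (Clos.solv_of_normal hT h1), Clos.pLengthLE_one hS h1⟩
  refine Or.inr (or_iff_not_imp_left.mpr fun h2 => ?_)
  obtain ⟨L, _, hL, se, ab, h3⟩ := core7 hH hGS L0.pPrimeCore_quotient_pPrimeCore fun T hT => ⟨fun e => h1 ⟨T, hT, e⟩, by
    by_contra! h3
    obtain ⟨S, hS, rfl⟩ := lift T hT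
    refine h2 fun U => ?_
    obtain ⟨k, -, e⟩ := hS.exists_cj_eq (isSylowIn_top U)
    refine e ▸ ⟨⟨?_⟩⟩
    rintro ⟨_, x, hx, rfl⟩ ⟨_, y, hy, rfl⟩
    refine Subtype.ext ((map_mul _ _ _).symm.trans ((congrArg _ ?_).trans (map_mul _ _ _)))
    exact commutatorElement_eq_one_iff_mul_comm.mp (inj S hS.pgroup _ (commutator_le_self S (commutator_mem_commutator hx hy))
      (by rw [map_commutatorElement, commutatorElement_eq_one_iff_mul_comm.mpr (h3 _ ⟨x, hx, rfl⟩ _ ⟨y, hy, rfl⟩)]))⟩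
  have q := (Comp.compOf hL).qs
  have := k_simple q
  have hQ : IsPGroup 2 (pCore 2 (G ⧸ O)) := L0.pCore_isPGroup
  have hQC := pCore_le_cent hL
  obtain ⟨X⟩ := suz_of (k_nc q) se
  have hX := (Clos.suz_sylow X).map (L.map (pc L)).subtype
  have hf : Function.Surjective ((pc L).comp π) := pc_surj.comp hπ
  obtain ⟨S, hS, -, eS⟩ := exists_lift_ge _ hf (T' := X.Q.map (L.map (pc L)).subtype) ⟨le_top, hX.pgroup, fun R _ hR e => by
    obtain ⟨T, hT, h4⟩ := exists_isSylowIn_ge hR le_top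
    exact hX.max R (by rw [← MonoidHom.range_eq_map, range_subtype]; exact h4.trans (le_k hH hGS q hT)) hR e⟩
    IsPGroup.of_bot bot_le
  have mX : ∀ s ∈ S, ∃ a ∈ X.Q, (a : (G ⧸ O) ⧸ centralizer (L : Set (G ⧸ O))) = pc L (π s) := fun s hs =>
    eS.le (mem_map_of_mem _ hs)
  obtain ⟨_, ⟨⟨x, hx, rfl⟩, hxL⟩, _, ⟨⟨y, hy, rfl⟩, hyL⟩, hxy⟩ := (h3 _ (push S hS)).2
  by_cases hZ : X.Q = X.Z
  · have cx : CX ((pc L).subgroupMap L) := ⟨MonoidHom.subgroupMap_surjective _ _, fun z hz y =>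
      Subtype.ext (pc_eq_one.mp (congrArg Subtype.val hz) y y.2).symm⟩
    have m : ∀ s ∈ S, ∀ hs : π s ∈ L, (pc L).subgroupMap L ⟨π s, hs⟩ ∈ X.Z := fun s h4 hs => by
      obtain ⟨a, ha, e⟩ := mX s h4
      exact (Subtype.ext e : a = (pc L).subgroupMap L ⟨π s, hs⟩) ▸ hZ.le ha
    obtain ⟨c, c1, c2, c3, c4, c5⟩ := l2_four X cx (quasisimple_iff.mp q).1 (fun z hz => (W.pw_of_mem hQ
      ((L0.fitting_eq_pCore_of_pPrimeCore_eq_bot L0.pPrimeCore_quotient_pPrimeCore).le (Comp.center_le_fitting hL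
        ⟨z.2, pc_eq_one.mp (congrArg Subtype.val hz)⟩))).imp fun _ => Subtype.ext) hZ (m x hx hxL) (m y hy hyL)
      fun e => hxy (congrArg Subtype.val (cx.comm_of_cm e))
    obtain ⟨e'⟩ := sl_of q se (pc_eq_one.mp (congrArg Subtype.val c3)) ⟨congrArg Subtype.val c1, fun e => c2 (Subtype.ext e)⟩ c.2
      (fun x hx e => (c4 ⟨x, hx⟩ (Subtype.ext (pc_eq_one.mpr e))).imp (congrArg Subtype.val) (congrArg Subtype.val))
      fun x hx e => (c5 ⟨x, hx⟩ (Subtype.ext e)).imp (congrArg Subtype.val) (congrArg Subtype.val)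
    obtain ⟨e⟩ := nonempty_equiv_comap π hπ (L ⊔ pCore 2 _) (QuotientGroup.ker_mk' _)
    refine Or.inl ⟨O, (L ⊔ pCore 2 _).comap π, inferInstance, inferInstance, inferInstance,
      lt_of_le_of_ne ((QuotientGroup.ker_mk' _).ge.trans (ker_le_comap _ _)) fun e => hxy ?_, Nat.odd_iff.mpr (by omega), ?_,
      ((pCore 2 _).subgroupOf _).map e.symm.toMonoidHom, (L.subgroupOf _).map e.symm.toMonoidHom, ⟨⟨?_⟩⟩,
      (pgroup_subgroupOf hQ _).map _, ⟨(e.symm.subgroupMap _).symm.trans ((subgroupOfEquivOfLe le_sup_left).trans e')⟩, ?_, ?_⟩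
    · rw [(mO x).mpr (e.ge (mem_sup_left hxL)), one_mul, mul_one]
    · rw [index_comap_of_surjective _ hπ]
      exact odd_index_of fun S hS => (h3 S hS).1
    · rintro ⟨_, a, ha, rfl⟩ ⟨_, b, hb, rfl⟩
      exact Subtype.ext ((map_mul _ _ _).symm.trans ((congrArg _ (Subtype.ext (ab _ ha _ hb))).trans (map_mul _ _ _)))
    · rintro _ ⟨a, ha, rfl⟩ _ ⟨b, hb, rfl⟩
      rw [← map_mul, ← map_mul, show a * b = b * a from Subtype.ext (hQC ha b hb).symm]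
    · rw [← Subgroup.map_sup, ← subgroupOf_sup le_sup_right le_sup_left, sup_comm (pCore 2 _), subgroupOf_self,
        map_top_of_surjective _ e.symm.surjective]
  right
  have k3 : S ≤ centralizer (O : Set G) := le_centralizer_iff.mp (cent_aux _ rfl O S (S ⊓ centralizer (S : Set G))
    inferInstance hO hS.pgroup inf_le_right (fun x hx h4 c hc s hs => by
      have h5 : cj c S = S := by_contra fun e => h4 ⟨hx, fun y hy =>
        (h S _ hS (syl_cj hS c) (Ne.symm e) x hx (mem_cj_of_comm hx (mem_Cz.mp hc.2)) y hy).symm⟩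
      refine (commutatorElement_eq_one_iff_mul_comm.mp (inj S hS.pgroup _
        (mul_mem (conj_mem (cj_eq_self_iff.mp h5) hs) (inv_mem hs)) ?_)).symm
      rw [map_commutatorElement, (mO c).mpr hc.1, commutatorElement_one_left]) fun a ha b hb => by
      obtain ⟨a', ha', e1⟩ := mX a ha
      obtain ⟨b', hb', e2⟩ := mX b hb
      obtain ⟨T, h4, h5, h6, h7⟩ := gen3 X hZ ha' hb'
      refine ⟨(T.map (L.map (pc L)).subtype).comap ((pc L).comp π), ⟨a', h4, e1⟩, ⟨b', h5, e2⟩, fun z hz => ?_,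
        fun e => h7 (map_le_map_iff_of_injective (subtype_injective _) |>.mp (eS ▸ map_le_iff_le_comap.mpr e))⟩
      obtain ⟨z', hz', e3⟩ := mX z hz.1
      refine ⟨z', h6 z' hz' fun w hw => Subtype.ext ?_, e3⟩
      obtain ⟨s, hs, e4⟩ := eS.ge (mem_map_of_mem _ hw)
      rw [coe_mul, coe_mul, e3, ← show pc L (π s) = w from e4, ← map_mul, ← map_mul, ← map_mul, ← map_mul, hz.2 s hs])
  have k4 : ∀ x ∈ (pCore 2 _).comap π, ∃ y ∈ S ⊓ (pCore 2 _).comap π, y⁻¹ * x ∈ O := fun x hx =>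
    let ⟨s, hs, e⟩ := le_syl hQ (push S hS) hx
    ⟨s, ⟨hs, show π s ∈ pCore 2 _ from e ▸ hx⟩, QuotientGroup.eq.mp e⟩
  have k5 : S ⊓ (pCore 2 _).comap π ≤ pCore 2 G := L0.le_pCore (normalizer_eq_top_iff.mp (eq_top_iff.mpr
    fun g _ => by
      obtain ⟨k, hk, e⟩ := (syl_inf (K := (pCore 2 _).comap π) hS).exists_cj_eq (syl_inf (syl_cj hS g))
      obtain ⟨y, hy, k5⟩ := k4 k hk
      rw [← mul_inv_cancel_left y k, cj_mul, cj_eq_self_of_mem_centralizer (g := y⁻¹ * k) (H := S ⊓ _)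
        fun x hx => (k3 hx.1 _ k5).symm, cj_eq_self (le_normalizer hy)] at e
      rw [← cj_eq_self_iff, cj_inf, cj_eq_self (H := comap π _) (le_normalizer_of_normal (mem_top g)), ← e]))
    hS.pgroup.to_inf_left
  have hA : IsPGroup 2 (pCore 2 G) := L0.pCore_isPGroup
  have k6 : (pCore 2 G).map π = pCore 2 _ := le_antisymm (L0.map_pCore_le π hπ) fun x hx => by
    obtain ⟨s, hs, rfl⟩ := le_syl hQ (push S hS) hx
    exact ⟨s, k5 ⟨hs, hx⟩, rfl⟩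
  set D := L.comap π ⊓ centralizer (O : Set G)
  have d1 : D.map π = L := (QS.normal q (map_le_iff_le_comap.mpr inf_le_left) (by
    have := Normal.map (inferInstance : D.Normal) π hπ
    exact le_normalizer_of_normal)).resolve_right fun e =>
      hxy (commutator_eq_bot_iff_le_centralizer.mp e ⟨x, ⟨hxL, k3 hx⟩, rfl⟩ _ hyL).symm
  have d2 : ⁅D, D⁆.map π = L := by rw [map_commutator, d1, QS.perfect q]
  have d3 : ⁅D, D⁆ ≤ D := commutator_le_self D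
  have hp := der_perfect π (d1.trans d2.symm).le fun z _ e y hy => hy.2 z ((mO z).mp e)
  have : ⁅D, D⁆.Normal := inferInstance
  generalize ⁅D, D⁆ = L₁ at *
  have c1 : CX ((π.comp L₁.subtype).codRestrict L fun x => (d3 x.2).1) := ⟨fun l => (d2.ge l.2).elim fun x e =>
    ⟨⟨x, e.1⟩, Subtype.ext e.2⟩, fun z hz y => Subtype.ext ((d3 y.2).2 z ((mO z).mp (congrArg Subtype.val hz)))⟩
  let ρ := (((pc L).comp π).comp L₁.subtype).codRestrict (L.map (pc L)) fun x => mem_map_of_mem _ (d3 x.2).1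
  have cx : CX ρ := ⟨by
      rintro ⟨_, l, hl, rfl⟩
      obtain ⟨x, hx, rfl⟩ := d2.ge hl
      exact ⟨⟨x, hx⟩, rfl⟩,
    fun z hz => c1.cen_of_perfect hp fun l => Subtype.ext (pc_eq_one.mp (congrArg Subtype.val hz) l l.2).symm⟩
  have mA : ∀ a ∈ pCore 2 G, π a ∈ pCore 2 _ := fun a ha => k6.le (mem_map_of_mem _ ha)
  have k7 : ∀ a ∈ pCore 2 G, ∀ l ∈ L₁, a * l = l * a := fun a ha l hl =>
    commutatorElement_eq_one_iff_mul_comm.mp (inj _ hA _ (commutator_le_left _ L₁ (commutator_mem_commutator ha hl)) (by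
      rw [map_commutatorElement, commutatorElement_eq_one_iff_mul_comm.mpr (hQC (mA a ha) _ (d3 hl).1).symm]))
  have dp : (∀ z, ρ z = 1 → z ^ 3 = 1) → IsInternalDirectProduct (pCore 2 G) L₁ (pCore 2 G ⊔ L₁) := fun e =>
    ⟨le_sup_left, le_sup_right, k7, eq_bot_iff.mpr fun a ha => W.eq_one_of_odd_pw (fun h4 => absurd (h4.trans
      (orderOf_dvd_of_pow_eq_one (congrArg Subtype.val (e ⟨a, ha.2⟩ (Subtype.ext (pc_eq_one.mpr (hQC (mA a ha.1))))))))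
      (by decide)) (W.pw_of_mem hA ha.1), rfl⟩
  refine ⟨pCore 2 G ⊔ L₁, inferInstance, odd_index_of fun T hT s hs => ?_, pCore 2 G, L₁,
    ⟨⟨fun a b => Subtype.ext (commutatorElement_eq_one_iff_mul_comm.mp (inj _ hA _ ⁅a, b⁆.2 (by
      rw [map_commutatorElement, commutatorElement_eq_one_iff_mul_comm.mpr (ab _ (mA _ a.2) _ (mA _ b.2))])))⟩⟩, hA, ?_⟩
  · obtain ⟨k, hk⟩ := W.pw_of_mem hT.pgroup hs
    refine mem_of_odd_relIndex (E := pCore 2 G ⊔ L₁ ⊔ O) le_normalizer_of_normal ?_ ?_ (hk ▸ one_mem _)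
    · rw [relIndex_sup_left]
      exact Nat.not_even_iff_odd.mp fun e => hO (e.two_dvd.trans (relIndex_dvd_card _ _))
    · rw [← QuotientGroup.ker_mk' O, ← comap_map_eq, Subgroup.map_sup, k6, d2, sup_comm]
      exact (h3 _ (push T hT)).1 (mem_map_of_mem _ hs)
  have fin : Function.Injective ρ → (∀ z, ρ z = 1 → z ^ 3 = 1) ∧ Nonempty (L₁ ≃* L.map (pc L)) := fun e =>
    ⟨fun z hz => by rw [(injective_iff_map_eq_one ρ).mp e z hz, one_pow], ⟨MulEquiv.ofBijective ρ ⟨e, cx.surj⟩⟩⟩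
  rcases suz_cases X hZ with ⟨hc, m, F, _, _, h4, h5, h6, ⟨e⟩⟩ | ⟨n, F, _, _, h4, h5, ⟨e⟩⟩
  · by_cases h7 : Function.Injective ρ
    · obtain ⟨h8, ⟨e'⟩⟩ := fin h7
      exact Or.inl ⟨dp h8, Or.inl ⟨m, F, _, _, h4, h5, ⟨e'.trans e⟩⟩⟩
    have h8 : X.q = 8 := by_contra fun e => h7 (sz_inj X cx hp hc e)
    obtain rfl : m = 1 := by
      have := Nat.pow_right_injective le_rfl (show 2 ^ (2 * m + 1) = 2 ^ 3 from h6.symm.trans h8)
      omega
    have h9 : center L₁ = ρ.ker := le_antisymm (fun z hz => Subtype.ext (k_cent q _ (by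
      rintro _ ⟨l, hl, rfl⟩
      obtain ⟨x, hx, rfl⟩ := d2.ge hl
      exact congrArg (fun t => (ρ t).1) (mem_center_iff.mp hz ⟨x, hx⟩).symm))) fun z hz => mem_center_iff.mpr fun y => (cx.cen z hz y).symm
    exact Or.inr ⟨le_sup_left, le_sup_right, k7, rfl, ⟨hp⟩, fun e => h7 (ρ.ker_eq_bot_iff.mp (h9 ▸ e)), F, _, _, h5,
      ⟨((QuotientGroup.quotientMulEquivOfEq h9).trans (QuotientGroup.quotientKerEquivOfSurjective ρ cx.surj)).trans e⟩⟩
  · obtain ⟨h6, h7⟩ := cover_psu (ρ := e.toMonoidHom.comp ρ) ⟨e.surjective.comp cx.surj, fun z hz =>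
      cx.cen z (e.map_eq_one_iff.mp hz)⟩ hp h4 rfl h5
    exact Or.inl ⟨dp fun z hz => h7 z (by simp [hz]), Or.inr ⟨n, F, _, _, h4, h5, h6⟩⟩

end Cfsg.Agent.H7.CI
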