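import Cfsg.Agent.H7.CA5
import Cfsg.Agent.H8.PxQ
import Cfsg.Agent.H8.Generation
import Cfsg.Agent.H5.AutRank
import Cfsg.Agent.L0.Fitting

set_option autoImplicit false

/-! Groups whose elements of prime power order have one non-trivial class size. -/

namespace Cfsg.Agent.H7.CA

open Subgroup H8
open scoped commutatorElement

variable {K : Type*} [Group K]

/-- `x` is a `p`-element -/
def PE (p : ℕ) (x : K) : Prop := ∃ k, x ^ p ^ k = 1

theorem PE.pgroup {p : ℕ} {x : K} (h : PE p x) : IsPGroup p (zpowers x) := by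
  obtain ⟨k, hk⟩ := h
  rintro ⟨_, n, rfl⟩
  refine ⟨k, Subtype.ext ?_⟩
  change (x ^ n) ^ p ^ k = 1
  rw [← zpow_natCast, ← zpow_mul, mul_comm, zpow_mul, zpow_natCast, hk, one_zpow]

theorem pe_of_mem {p : ℕ} {P : Subgroup K} (hP : IsPGroup p P) {x : K} (hx : x ∈ P) : PE p x :=
  (hP ⟨x, hx⟩).imp fun _ hk => congrArg Subtype.val hk

theorem pe_of_orderOf {p : ℕ} {x : K} (h : orderOf x = p) : PE p x :=
  ⟨1, by rw [pow_one, ← h, pow_orderOf_eq_one]⟩

theorem PE.conj {p : ℕ} {x : K} (h : PE p x) (g : K) : PE p (g * x * g⁻¹) :=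
  h.imp fun k hk => by rw [conj_pow, hk, mul_one, mul_inv_cancel]

theorem PE.coprime_nat {p : ℕ} {x : K} (h : PE p x) {n : ℕ} (hn : p.Coprime n) :
    (orderOf x).Coprime n := by
  obtain ⟨k, hk⟩ := h
  exact Nat.Coprime.coprime_dvd_left (orderOf_dvd_of_pow_eq_one hk) (hn.pow_left k)

theorem PE.coprime {p q : ℕ} (hp : p.Prime) (hq : q.Prime) (hne : p ≠ q) {x y : K} (hx : PE p x)
    (hy : PE q y) : (orderOf x).Coprime (orderOf y) :=
  hx.coprime_nat (hy.coprime_nat ((Nat.coprime_primes hq hp).mpr hne.symm)).symm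

theorem PE.mem_of_pow {p : ℕ} {x : K} (h : PE p x) {n : ℕ} (hn : p.Coprime n) {H : Subgroup K}
    (hx : x ^ n ∈ H) : x ∈ H := by
  obtain ⟨m, hm⟩ := exists_pow_eq_self_of_coprime (h.coprime_nat hn).symm
  exact hm ▸ pow_mem hx m

theorem PE.dvd {p : ℕ} (hp : p.Prime) {x : K} (h : PE p x) (h1 : x ≠ 1) : p ∣ orderOf x := by
  by_contra h2
  exact h1 (orderOf_eq_one_iff.mp ((Nat.coprime_self _).mp
    (h.coprime_nat ((Nat.Prime.coprime_iff_not_dvd hp).mpr h2))))

variable [Finite K]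

theorem mem_of_pe {x : K} {H : Subgroup K}
    (h : ∀ q, q.Prime → q ∣ orderOf x → ∀ y ∈ zpowers x, PE q y → y ∈ H) : x ∈ H := by
  refine le_of_forall_isSylowIn_le (K := zpowers x) (fun q hq hd => ?_) (mem_zpowers x)
  obtain ⟨P, hP⟩ := exists_isSylowIn q (zpowers x)
  exact ⟨P, hP, fun y hy => h q hq (by rwa [Nat.card_zpowers] at hd) y (hP.le hy)
    (pe_of_mem hP.pgroup hy)⟩

theorem le_of_pe {H L : Subgroup K} (h : ∀ q, q.Prime → ∀ y ∈ L, PE q y → y ∈ H) : L ≤ H :=
  fun _ hx => mem_of_pe fun q hq _ y hy => h q hq y (zpowers_le.mpr hx hy)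

theorem exists_pe_of_dvd {p : ℕ} (hp : p.Prime) {N H : Subgroup K} (h : p ∣ N.relIndex H) :
    ∃ x ∈ H, x ∉ N ∧ PE p x := by
  have := Fact.mk hp
  obtain ⟨P, hP⟩ := exists_isSylowIn p H
  by_contra h1
  push Not at h1
  refine hP.not_dvd_relIndex (h.trans (relIndex_dvd_of_le_left _ fun x hx => ?_))
  by_contra h2
  exact h1 x (hP.le hx) h2 (pe_of_mem hP.pgroup hx)

theorem dvd_relIndex_of_pe {p : ℕ} (hp : p.Prime) {N H : Subgroup K} [N.Normal] {x : K}
    (hx : PE p x) (hH : x ∈ H) (hN : x ∉ N) : p ∣ N.relIndex H := by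
  by_contra h
  refine hN (L0.le_of_card_coprime_relIndex (zpowers_le.mpr hH) inferInstance ?_ (mem_zpowers x))
  rw [Nat.card_zpowers]
  exact hx.coprime_nat ((Nat.Prime.coprime_iff_not_dvd hp).mpr h)

/-- a subgroup containing all `q`-elements for `q ≠ p` has `p`-power index -/
theorem index_pow_of_pe {p : ℕ} {H L : Subgroup K}
    (h : ∀ q, q.Prime → q ≠ p → ∀ y ∈ L, PE q y → y ∈ H) : ∃ k, H.relIndex L = p ^ k := by
  refine ⟨_, Nat.eq_prime_pow_of_unique_prime_dvd (p := p) index_ne_zero_of_finite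
    fun {q} hq hd => ?_⟩
  by_contra h1
  obtain ⟨x, h2, h3, h4⟩ := exists_pe_of_dvd hq hd
  exact h3 (h q hq h1 x h2 h4)

theorem exists_not_conj_mem {H : Subgroup K} (hH : H ≠ ⊤) : ∃ y : K, ∀ g, g * y * g⁻¹ ∉ H := by
  classical
  by_contra h
  push Not at h
  have := Fintype.ofFinite K
  have := Fintype.ofFinite (Quotient (MulAction.orbitRel K (K ⧸ H)))
  have h1 := MulAction.sum_card_fixedBy_eq_card_orbits_mul_card_group K (K ⧸ H)
  have h2 : Fintype.card (Quotient (MulAction.orbitRel K (K ⧸ H))) ≤ 1 :=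
    Fintype.card_le_one_iff_subsingleton.mpr
      ((MulAction.pretransitive_iff_subsingleton_quotient K _).mp inferInstance)
  have h3 : ∑ _a : K, 1 < ∑ a : K, Fintype.card (MulAction.fixedBy (K ⧸ H) a) := by
    refine Finset.sum_lt_sum (fun a _ => ?_) ⟨1, Finset.mem_univ _, ?_⟩
    · obtain ⟨g, hg⟩ := h a
      refine Fintype.card_pos_iff.mpr ⟨⟨(g⁻¹ : K), ?_⟩⟩
      change ((a * g⁻¹ : K) : K ⧸ H) = _
      rw [eq_comm, QuotientGroup.eq, inv_inv, ← mul_assoc]
      exact hg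
    · rw [← Nat.card_eq_fintype_card, MulAction.fixedBy_one_eq_univ, Nat.card_univ]
      exact H.one_lt_index_of_ne_top hH
  rw [h1, Finset.sum_const, smul_eq_mul, mul_one, Finset.card_univ] at h3
  nlinarith

/-- elements of prime power order have class size `1` or `|K| / d` -/
def Two (K : Type*) [Group K] (d : ℕ) : Prop :=
  ∀ r, r.Prime → ∀ x : K, PE r x → x ∉ center K → co x = d

omit [Finite K] in
theorem center_le_cen (x : K) : center K ≤ centralizer {x} :=
  fun _ h => mem_cen.mpr (mem_center_iff.mp h x).symm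

theorem Two.axb {d : ℕ} (h : Two K d) {p q : ℕ} (hp : p.Prime) (hq : q.Prime) (hne : p ≠ q)
    {x : K} (hx : PE p x) {Q : Subgroup K} [Q.Normal] (hQ : IsPGroup q Q) :
    Q ≤ centralizer {x} := by
  by_cases hZ : x ∈ center K
  · exact fun y _ => mem_cen.mpr (mem_center_iff.mp hZ y)
  have := Fact.mk hp
  have := Fact.mk hq
  obtain ⟨V, hV⟩ := exists_isSylowIn q (centralizer ({x} : Set K))
  rw [← centralizer_zpowers]
  refine pxq hV.pgroup hQ (not_dvd_card_of_pgroup hne hx.pgroup) (centralizer_zpowers x ▸ hV.le)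
    le_normalizer_of_normal le_normalizer_of_normal fun g hg => ?_
  rw [centralizer_zpowers]
  by_cases hg1 : g ∈ center K
  · exact center_le_cen x hg1
  have hge := pe_of_mem hQ hg.1
  have h1 : IsSylowIn q V (centralizer ({g} : Set K)) :=
    .of_card_eq (fun v hv => mem_cen.mpr (hg.2 v hv))
      (by rw [hV.card_eq]; exact congrArg (q ^ Nat.factorization · q)
            ((h p hp x hx hZ).trans (h q hq g hge hg1).symm))
  refine hV.le (h1.le_of_le_normalizer' hge.pgroup (zpowers_le.mpr (mem_cen.mpr rfl)) ?_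
    (mem_zpowers g))
  exact zpowers_le.mpr (centralizer_le_normalizer _ hg.2)

theorem Two.comm [Group.IsSolvable K] {d : ℕ} (h : Two K d) {p q : ℕ} (hp : p.Prime)
    (hq : q.Prime) (hne : p ≠ q) {x y : K} (hx : PE p x) (hy : PE q y) : y * x = x * y := by
  have := Fact.mk hp
  let N : Subgroup K := ⨅ r : {r : Nat.Primes // r.1 ≠ p}, centralizer (pCore r.1 K : Set K)
  have hN : N.Normal := normal_iInf_normal fun _ => inferInstance
  have h1 : ∀ r s : ℕ, r.Prime → s.Prime → r ≠ s → ∀ a : K, PE r a →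
      a ∈ centralizer (pCore s K : Set K) := fun r s hr hs hrs a ha b hb =>
    have := Fact.mk hs
    mem_cen.mp (h.axb hr hs hrs ha L0.pCore_isPGroup hb)
  have h2 : ∀ a : K, PE p a → a ∈ N := fun a ha =>
    mem_iInf.mpr fun r => h1 p r.1 hp r.1.2 r.2.symm a ha
  obtain ⟨S, hS, hxS⟩ := exists_isSylowIn_ge (K := ⊤) hx.pgroup le_top
  have hSN : S ≤ N := fun a ha => h2 a (pe_of_mem hS.pgroup ha)
  have h3 : N ≤ normalizer (S : Set K) := by
    refine le_of_forall_isSylowIn_le fun r hr _ => ?_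
    by_cases hrp : r = p
    · exact ⟨S, hrp ▸ hS.of_le hSN le_top, le_normalizer⟩
    have := Fact.mk hr
    obtain ⟨R, hR⟩ := exists_isSylowIn r N
    have h4 : R ≤ pCore r K := by
      refine L0.le_pCore_of_le_fitting hR.pgroup (le_trans (fun a ha => ?_) L0.centralizer_fitting_le)
      rw [L0.fitting_eq_iSup_pCore, ← zpowers_le, le_centralizer_iff]
      refine iSup_le fun s => le_centralizer_iff.mp (zpowers_le.mpr ?_)
      by_cases hs : s.1 = p
      · exact h1 r s hr s.2 (hs ▸ hrp) a (pe_of_mem hR.pgroup ha)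
      · exact mem_iInf.mp (hR.le ha) ⟨s, hs⟩
    exact ⟨R, hR, fun a ha => centralizer_le_normalizer _ fun b hb =>
      (h1 p r hp hr (Ne.symm hrp) b (pe_of_mem hS.pgroup hb) a (h4 ha)).symm⟩
  have h5 : S.Normal := by
    rw [← normalizer_eq_top_iff, eq_top_iff, ← (hS.of_le hSN le_top).frattini_sup le_top
      le_normalizer_of_normal]
    exact sup_le h3 inf_le_right
  exact (mem_cen.mp (h.axb hq hp hne.symm hy hS.pgroup (hxS (mem_zpowers x)))).symm

end Cfsg.Agent.H7.CA
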