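import Cfsg.Agent.H7.It1

set_option autoImplicit false

/-! Itô: a group whose proper centralizers are abelian of one order is nilpotent. -/

namespace Cfsg.Agent.H7.CA

open Subgroup H8
open scoped commutatorElement

variable {K : Type*} [Group K] [Finite K]

structure EqCA (K : Type*) [Group K] (d : ℕ) : Prop where
  ab : ∀ x ∉ center K, ∀ a ∈ centralizer ({x} : Set K), ∀ b ∈ centralizer ({x} : Set K),
    a * b = b * a
  eq : ∀ x ∉ center K, co x = d

namespace EqCA

variable {d : ℕ} (h : EqCA K d)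
include h

theorem same {x y : K} (hx : x ∉ center K) (hy : y ∉ center K)
    (hc : y ∈ centralizer ({x} : Set K)) : centralizer ({y} : Set K) = centralizer {x} :=
  (eq_of_le_of_card_ge (fun a ha => mem_cen.mpr (h.ab x hx a ha y hc))
    ((h.eq y hy).trans (h.eq x hx).symm).le).symm

theorem mem_center {x y g : K} (hx : x ∉ center K) (hy : y ∈ centralizer ({x} : Set K))
    (hg : g ∉ centralizer ({x} : Set K)) (hc : g * y = y * g) : y ∈ center K := by
  by_contra h1
  exact hg (h.same hx h1 hy ▸ mem_cen.mpr hc)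

theorem rel_eq {x y : K} (hx : x ∉ center K) (hy : y ∉ center K) :
    (center K).relIndex (centralizer {x}) = (center K).relIndex (centralizer {y}) := by
  refine Nat.eq_of_mul_eq_mul_right (Nat.card_pos (α := center K)) ?_
  rw [L0.relIndex_mul_card_of_le (center_le_cen x), L0.relIndex_mul_card_of_le (center_le_cen y)]
  exact (h.eq x hx).trans (h.eq y hy).symm

theorem rel_dvd {x : K} (hx : x ∉ center K) :
    (center K).relIndex (centralizer {x}) ∣ (centralizer ({x} : Set K)).index := by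
  obtain ⟨y, hy⟩ := exists_not_conj_mem (H := centralizer ({x} : Set K)) fun h1 =>
    hx (mem_center_iff.mpr fun g => mem_cen.mp (h1 ▸ mem_top g))
  have hyZ : y ∉ center K := fun h1 => hy 1 (by simpa using center_le_cen x h1)
  rw [← H6.ncard_cl_eq_index, h.rel_eq hx hyZ]
  let _ : MulAction (centralizer ({y} : Set K)) K :=
    MulAction.compHom K ((MulAut.conj (G := K)).comp (centralizer ({y} : Set K)).subtype)
  refine H6.dvd_ncard_of_orbits (G := centralizer ({y} : Set K)) _
    (fun g w hw => (IsConj.trans hw (isConj_iff.mpr ⟨g, rfl⟩) : IsConj x (g * w * (g : K)⁻¹))) fun w hw => ?_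
  refine index_dvd_of_le (H := MulAction.stabilizer _ w) fun g hg => ?_
  obtain ⟨c, rfl⟩ := isConj_iff.mp hw
  refine h.mem_center hyZ g.2 (g := c * x * c⁻¹) (fun h1 => hy c⁻¹ (mem_cen.mpr ?_))
    (mul_inv_eq_iff_eq_mul.mp hg).symm
  have h2 := mem_cen.mp h1
  calc c⁻¹ * y * c⁻¹⁻¹ * x = c⁻¹ * (y * (c * x * c⁻¹)) * c := by group
    _ = _ := by rw [← h2]; group

theorem second {x : K} (hx : x ∉ center K) {r : ℕ} (hr : r.Prime)
    (hd : r ∣ (center K).relIndex (centralizer {x})) :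
    ∃ (R : Subgroup K) (v : K), IsSylowIn r R ⊤ ∧ v ∉ center K ∧
      R ≤ normalizer (centralizer ({v} : Set K) : Set K) ∧ ¬ R ≤ centralizer {v} ∧
      (∀ g ∈ R, g ^ r ∈ centralizer ({v} : Set K)) ∧
      ∀ a ∈ R, ∀ b ∈ R, a * b * a⁻¹ * b⁻¹ ∈ centralizer ({v} : Set K) := by
  have := Fact.mk hr
  obtain ⟨y, -, hy, hye⟩ := exists_pe_of_dvd hr hd
  obtain ⟨R, hR, hyR⟩ := exists_isSylowIn_ge (K := ⊤) hye.pgroup le_top
  obtain ⟨v, hvR, hv, hvr, hc⟩ := H5.exists_mem_not_mem_central_mod (H := center K) hR.pgroup le_rfl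
    le_normalizer fun h1 => hy (h1 (hyR (mem_zpowers y)))
  have e : ∀ g ∈ R, ∃ z ∈ center K, g * v = z * (v * g) := fun g hg =>
    ⟨_, inv_mem (hc g hg), by rw [commutatorElement_def]; group⟩
  refine ⟨R, v, hR, hv, fun g hg => ?_, fun h1 => ?_, fun g hg => ?_, fun a ha b hb => ?_⟩
  · obtain ⟨z, hz, e⟩ := e g hg
    rw [← cj_eq_self_iff, cj_centralizer_singleton, e, ← mul_assoc, mul_inv_cancel_right]
    refine h.same hv (fun h1 => hv ((mul_mem_cancel_left hz).mp h1)) (mem_cen.mpr ?_)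
    rw [mul_assoc, ← mem_center_iff.mp hz, mul_assoc, ← mem_center_iff.mp hz]
  · refine hR.not_dvd_relIndex ?_
    rw [relIndex_top_right]
    exact ((h.rel_eq hx hv ▸ hd).trans (h.rel_dvd hv)).trans (index_dvd_of_le h1)
  · obtain ⟨z, hz, e⟩ := e g hg
    have hz' := mem_center_iff.mp hz
    have h1 : ∀ n : ℕ, g ^ n * v = z ^ n * (v * g ^ n) := fun n => by
      induction n with
      | zero => simp
      | succ n ih =>
        rw [pow_succ', mul_assoc, ih, ← mul_assoc, (Commute.pow_right (hz' g) n).eq, mul_assoc,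
          ← mul_assoc g, e, pow_succ]
        simp only [mul_assoc]
    have h2 : g * v * g⁻¹ = z * v := by rw [e, ← mul_assoc, mul_inv_cancel_right]
    have h3 : g * v ^ r * g⁻¹ = z ^ r * v ^ r := by
      rw [← conj_pow, h2, Commute.mul_pow (hz' v).symm]
    rw [mem_center_iff.mp hvr g, mul_inv_cancel_right, eq_comm, mul_eq_right] at h3
    rw [mem_cen, h1, h3, one_mul]
  · obtain ⟨z, hz, ea⟩ := e a ha
    obtain ⟨w, hw, eb⟩ := e b hb
    have hz' := mem_center_iff.mp hz
    have hw' := mem_center_iff.mp hw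
    have h1 : ∀ c e z w : K, z ∈ center K → w ∈ center K → c * v = z * (v * c) →
        e * v = w * (v * e) → c * e * v = z * w * (v * (c * e)) := fun c e z w hz hw h1 h2 => by
      rw [mul_assoc, h2, ← mul_assoc, mem_center_iff.mp hw, mul_assoc, ← mul_assoc c, h1,
        mem_center_iff.mp hw z]
      simp only [mul_assoc]
    have h2 : ∀ c z : K, z ∈ center K → c * v = z * (v * c) → c⁻¹ * v = z⁻¹ * (v * c⁻¹) :=
      fun c z hz h1 => by
        rw [eq_inv_mul_iff_mul_eq, ← mul_assoc, ← mem_center_iff.mp hz, mul_assoc,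
          inv_mul_eq_iff_eq_mul, ← mul_assoc, h1]
        group
    rw [mem_cen, h1 _ _ _ _ (mul_mem (mul_mem hz hw) (inv_mem hz)) (inv_mem hw)
      (h1 _ _ _ _ (mul_mem hz hw) (inv_mem hz) (h1 _ _ _ _ hz hw ea eb) (h2 _ _ hz ea))
      (h2 _ _ hw eb), hw' z]
    group

theorem not_sq {x : K} (hx : x ∉ center K) {r s : ℕ} (hr : r.Prime) (hs : s.Prime) (hne : s ≠ r)
    (hd : r ∣ (center K).relIndex (centralizer {x}))
    (hd' : s ∣ (center K).relIndex (centralizer {x})) :
    ¬ r * r ∣ (center K).relIndex (centralizer {x}) := by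
  have := Fact.mk hr
  obtain ⟨R, v, hR, hv, hn, hle, hp, hc⟩ := h.second hx hr hd
  obtain ⟨b, hbR, hb⟩ := SetLike.not_le_iff_exists.mp hle
  obtain ⟨c, hcv, hcZ, hce⟩ := exists_pe_of_dvd hs (h.rel_eq hx hv ▸ hd')
  set C := centralizer ({v} : Set K) with hC
  have key : ∀ a ∈ R, ∃ i : ℕ, a * b ^ i ∈ C := by
    intro a ha
    by_contra h1
    push Not at h1
    let _ : CommGroup C := { (inferInstance : Group C) with
      mul_comm := fun a b => Subtype.ext (h.ab v hv _ a.2 _ b.2) }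
    let τ : R →* Monoid.End C :=
      (MulDistribMulAction.toMonoidEnd (normalizer (C : Set K)) C).comp (inclusion hn)
    have hτ : ∀ (a : R) (y : C), ((τ a y : C) : K) = a * y * (a : K)⁻¹ := fun _ _ => rfl
    have h2 : ∀ a : R, (a : K) ∈ C → τ a = 1 := fun a ha => by
      ext y
      rw [hτ, h.ab v hv _ ha _ y.2, mul_inv_cancel_right]; rfl
    have h3 : ∀ a : R, (a : K) ∉ C → ∀ y, τ a y = y → y ∈ (center K).subgroupOf C :=
      fun a ha y hy => h.mem_center hv y.2 ha
        (mul_inv_eq_iff_eq_mul.mp ((hτ a y).symm.trans (congrArg Subtype.val hy)))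
    refine hcZ (hce.mem_of_pow ((Nat.coprime_primes hs hr).mpr hne)
      (pow_mem_of_fixed_points (τ ⟨a, ha⟩) (τ ⟨b, hbR⟩) ?_ hr.pos ?_ ?_ ((center K).subgroupOf C) (fun i => ?_)
        (fun j h4 h5 => ?_) ⟨c, hcv⟩))
    · have h4 := h2 (⟨a, ha⟩ * ⟨b, hbR⟩ * (⟨a, ha⟩ : R)⁻¹ * (⟨b, hbR⟩ : R)⁻¹) (hc a ha b hbR)
      change _ = _
      rw [← map_mul, ← map_mul, ← one_mul (τ (_ * ⟨a, ha⟩)), ← h4, ← map_mul]
      congr 1
      group
    · rw [← map_pow]; exact h2 _ (hp a ha)
    · rw [← map_pow]; exact h2 _ (hp b hbR)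
    · rw [← map_pow, ← map_mul]; exact h3 _ (h1 i)
    · rw [← map_pow]
      exact h3 _ fun h6 => hb ((pe_of_mem hR.pgroup hbR).mem_of_pow
        (Nat.coprime_of_lt_prime h4.ne' h5 hr) h6)
  have hN : (C.subgroupOf R).Normal := normal_subgroupOf_of_le_normalizer hn
  have h1 : C.relIndex R ∣ r := by
    have h2 : zpowers (((⟨b, hbR⟩ : R) : R ⧸ C.subgroupOf R)) = ⊤ := by
      rw [eq_top_iff]
      rintro ⟨a⟩ -
      obtain ⟨i, hi⟩ := key a⁻¹ (inv_mem a.2)
      exact ⟨i, by
        simp only [zpow_natCast]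
        exact (QuotientGroup.eq.mpr hi : ((a : R) : R ⧸ C.subgroupOf R) = (⟨b, hbR⟩ ^ i : R)).symm⟩
    rw [relIndex, index, ← card_top, ← h2, Nat.card_zpowers, orderOf_dvd_iff_pow_eq_one,
      ← QuotientGroup.mk_pow, QuotientGroup.eq_one_iff]
    exact hp b hbR
  intro h2
  have h3 := ((h.rel_eq hx hv ▸ h2).trans (h.rel_dvd hv)).trans (index_dvd_of_le (inf_le_left (b := R)))
  rw [← relIndex_mul_index inf_le_right, inf_relIndex_right] at h3
  refine hR.not_dvd_relIndex ?_
  rw [relIndex_top_right]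
  exact Nat.dvd_of_mul_dvd_mul_left hr.pos (h3.trans (Nat.mul_dvd_mul_right h1 _))

theorem false_of_lt {x : K} (hx : x ∉ center K) {p q : ℕ} (hp : p.Prime) (hq : q.Prime)
    (hlt : p < q) (hd : p ∣ (center K).relIndex (centralizer {x}))
    (hd' : q ∣ (center K).relIndex (centralizer {x})) : False := by
  have := Fact.mk hp
  have := Fact.mk hq
  obtain ⟨R, v, hR, hv, hn, hle, -, -⟩ := h.second hx hq hd'
  obtain ⟨g, hgR, hg⟩ := SetLike.not_le_iff_exists.mp hle
  have h1 := h.not_sq hx hp hq hlt.ne' hd hd'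
  rw [h.rel_eq hx hv] at h1 hd
  set C := centralizer ({v} : Set K) with hC
  obtain ⟨P, hP⟩ := exists_isSylowIn p C
  have h2 : g ∈ normalizer (P : Set K) := by
    obtain ⟨k, hk, h3⟩ := hP.frattini (hn hgR)
    exact (mul_mem_cancel_left (centralizer_le_normalizer _ fun a ha =>
      h.ab v hv a (hP.le ha) k hk)).mp h3
  have h3 := H5.card_modEq_card_inf_centralizer (pe_of_mem hR.pgroup hgR).pgroup (zpowers_le.mpr h2)
  have h4 : P ⊓ centralizer (zpowers g : Set K) = center K ⊓ P := by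
    rw [centralizer_zpowers]
    exact le_antisymm (fun a ha => ⟨h.mem_center hv (hP.le ha.1) hg (mem_cen.mp ha.2).symm, ha.1⟩)
      fun a ha => ⟨ha.2, center_le_cen g ha.1⟩
  have h5 : (center K).relIndex P = p := by
    have h6 : (center K).relIndex P ∣ (center K).relIndex C := by
      rw [← relIndex_sup_right]
      exact Dvd.intro _ (relIndex_mul_relIndex _ _ _ le_sup_right (sup_le hP.le (center_le_cen v)))
    obtain ⟨k, hk⟩ := hP.pgroup.index ((center K).subgroupOf P)
    change relIndex _ _ = _ at hk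
    rcases k with _ | _ | k
    · exact (hP.not_dvd_relIndex (hd.trans (relIndex_dvd_of_le_left _
        (relIndex_eq_one.mp hk)))).elim
    · simpa using hk
    · exact (h1 (Dvd.dvd.trans ⟨p ^ k, by rw [hk]; ring⟩ h6)).elim
  rw [h4, ← L0.relIndex_mul_card_of_le (inf_le_right : center K ⊓ P ≤ P), inf_relIndex_right, h5] at h3
  have h7 := Nat.ModEq.cancel_right_of_coprime (a := p) (b := 1)
    (coprime_of_pgroup (hP.pgroup.to_le inf_le_right)
      (mt (Nat.prime_dvd_prime_iff_eq hp hq).mp hlt.ne)).symm (by rwa [one_mul])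
  exact hp.one_lt.ne' (Nat.ModEq.eq_of_lt_of_lt h7 hlt hq.one_lt)

end EqCA

end Cfsg.Agent.H7.CA
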