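import Cfsg.Agent.H7.It2

set_option autoImplicit false

/-! Nilpotency criteria from class sizes. -/

namespace Cfsg.Agent.H7.CA

open Subgroup H8

variable {K : Type*} [Group K] [Finite K]

/-- `p`-elements and `q`-elements commute for `p ≠ q` -/
def Cm (K : Type*) [Group K] : Prop :=
  ∀ p q : ℕ, p.Prime → q.Prime → p ≠ q → ∀ x y : K, PE p x → PE q y → y * x = x * y

theorem cm_of_two {a b d : ℕ} (ha : a.Prime) (hb : b.Prime) (hab : a ≠ b)
    (h : ∀ x ∉ center K, (orderOf x).Coprime a ∨ (orderOf x).Coprime b → co x = d) : Cm K := by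
  have hor : ∀ q : ℕ, q.Prime → q.Coprime a ∨ q.Coprime b := fun q hq => by
    rw [Nat.coprime_primes hq ha, Nat.coprime_primes hq hb]; omega
  have h2 : Two K d := fun r hr x hx hZ => h x hZ ((hor r hr).imp hx.coprime_nat hx.coprime_nat)
  by_cases hs : Group.IsSolvable K
  · exact fun p q hp hq hne x y hx hy => h2.comm hp hq hne hx hy
  exfalso
  have h3 : ∀ p q : ℕ, p.Prime → q.Prime → ∃ r, r.Prime ∧ r ≠ p ∧ r ≠ q ∧
      ∃ x, x ∉ center K ∧ PE r x := by
    intro p q hp hq
    by_contra h3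
    push Not at h3
    have : Group.IsSolvable (K ⧸ center K) := L0.isSolvable_of_primes hp hq fun r hr hd => by
      by_contra h4
      obtain ⟨x, -, h5, h6⟩ := exists_pe_of_dvd (N := center K) (H := ⊤) hr
        (by rwa [relIndex_top_right])
      exact h3 r hr (fun e => h4 (.inl e)) (fun e => h4 (.inr e)) x h5 h6
    have : Group.IsSolvable (center K) := Group.isSolvable_of_comm fun a b =>
      Subtype.ext (mem_center_iff.mp b.2 a)
    exact hs (Group.isSolvable_of_ker_le_range (center K).subtype (QuotientGroup.mk' (center K))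
      (by simp))
  obtain ⟨r, hr, hra, hrb, y₀, hy₀, hy₀e⟩ := h3 a b ha hb
  obtain ⟨s, hs, hsr, -, v₀, hv₀, hv₀e⟩ := h3 r r hr hr
  have hn : ∀ p q : ℕ, p.Prime → q.Prime → ∀ x y : K, PE p x → PE q y → x ∉ center K →
      y ∉ center K → q ∣ (center K).relIndex (centralizer {x}) := by
    intro p q hp hq x y hx hy hxZ hyZ
    have : (center K).relIndex (centralizer {x}) = (center K).relIndex (centralizer {y}) := by
      refine Nat.eq_of_mul_eq_mul_right (Nat.card_pos (α := center K)) ?_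
      rw [L0.relIndex_mul_card_of_le (center_le_cen x), L0.relIndex_mul_card_of_le (center_le_cen y)]
      exact (h2 p hp x hx hxZ).trans (h2 q hq y hy hyZ).symm
    exact this ▸ dvd_relIndex_of_pe hq hy (mem_cen.mpr rfl) hyZ
  have key : ∀ p q : ℕ, p.Prime → q.Prime → p ≠ q → p = r ∨ q = r → ∀ x y : K, PE p x → PE q y →
      x ∉ center K → y ∈ centralizer ({x} : Set K) →
      centralizer ({x} : Set K) ≤ centralizer {y} := by
    intro p q hp hq hne hpq x y hx hy hxZ hc
    have hc' := (mem_cen.mp hc).symm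
    have hco := hx.coprime hp hq hne hy
    have h4 : ∀ n, p.Coprime n → q.Coprime n → (orderOf (x * y)).Coprime n := fun n h5 h6 =>
      Nat.Coprime.coprime_dvd_left (Commute.orderOf_mul_dvd_mul_orderOf hc')
        (Nat.Coprime.mul_left (hx.coprime_nat h5) (hy.coprime_nat h6))
    have hra' := (Nat.coprime_primes hr ha).mpr hra
    have hrb' := (Nat.coprime_primes hr hb).mpr hrb
    have h5 := h (x * y) (fun h5 => hxZ (zpowers_le.mpr h5 (mem_zpowers_mul hc' hco))) (by
      rcases hpq with rfl | rfl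
      · exact (hor q hq).imp (h4 a hra') (h4 b hrb')
      · exact (hor p hp).imp (h4 a · hra') (h4 b · hrb'))
    have h6 := cen_mul hc' hco
    rw [← eq_of_le_of_card_ge (h6 ▸ inf_le_left : centralizer ({x * y} : Set K) ≤ centralizer {x})
      ((h2 p hp x hx hxZ).trans h5.symm).le, h6]
    exact inf_le_right
  have ab1 : ∀ y ∉ center K, PE r y → centralizer ({y} : Set K) ≤
      centralizer (centralizer ({y} : Set K) : Set K) := by
    intro y hyZ hy
    obtain ⟨v, hv, hvZ, hve⟩ := exists_pe_of_dvd hs (hn r s hr hs y v₀ hy hv₀e hyZ hv₀)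
    have h4 := eq_of_le_of_card_ge (key r s hr hs hsr.symm (.inl rfl) y v hy hve hyZ hv)
      ((h2 s hs v hve hvZ).trans (h2 r hr y hy hyZ).symm).le
    refine le_of_pe fun q hq c hc hce g hg => mem_cen.mp ?_
    by_cases hqr : q = r
    · exact key s q hs hq (hqr ▸ hsr) (.inr hqr) v c hve hce hvZ (h4 ▸ hc) (h4 ▸ hg)
    · exact key r q hr hq (Ne.symm hqr) (.inl rfl) y c hy hce hyZ hc hg
  have ab2 : ∀ x ∉ center K, centralizer ({x} : Set K) ≤
      centralizer (centralizer ({x} : Set K) : Set K) ∧ co x = d := by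
    intro x hx
    obtain ⟨p, hp, x', hx', hxe, hxZ⟩ : ∃ p, p.Prime ∧ ∃ x' ∈ zpowers x, PE p x' ∧ x' ∉ center K := by
      by_contra h4
      push Not at h4
      exact hx (mem_of_pe fun q hq _ => h4 q hq)
    obtain ⟨y, hyZ, hye, e⟩ : ∃ y ∉ center K, PE r y ∧
        centralizer ({x'} : Set K) = centralizer {y} := by
      by_cases hpr : p = r
      · exact ⟨x', hxZ, hpr ▸ hxe, rfl⟩
      obtain ⟨y, hy, hyZ, hye⟩ := exists_pe_of_dvd hr (hn p r hp hr x' y₀ hxe hy₀e hxZ hy₀)
      exact ⟨y, hyZ, hye, eq_of_le_of_card_ge (key p r hp hr hpr (.inr rfl) x' y hxe hye hxZ hy)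
        ((h2 r hr y hye hyZ).trans (h2 p hp x' hxe hxZ).symm).le⟩
    have h4 := cen_le_of_mem_zpowers hx'
    have h5 : centralizer ({x} : Set K) = centralizer {y} := le_antisymm (e ▸ h4) fun g hg =>
      mem_cen.mpr (ab1 y hyZ hye (e ▸ h4 (mem_cen.mpr rfl)) g hg)
    exact ⟨h5 ▸ ab1 y hyZ hye, by rw [co, h5]; exact h2 r hr y hye hyZ⟩
  have hE : EqCA K d := ⟨fun x hx a ha b hb => (ab2 x hx).1 hb a ha, fun x hx => (ab2 x hx).2⟩
  have h4 := hn r r hr hr y₀ y₀ hy₀e hy₀e hy₀ hy₀
  have h5 := hn r s hr hs y₀ v₀ hy₀e hv₀e hy₀ hv₀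
  rcases lt_or_gt_of_ne hsr with h6 | h6
  · exact hE.false_of_lt hy₀ hs hr h6 h5 h4
  · exact hE.false_of_lt hy₀ hr hs h6 h4 h5

theorem nil_of_comm {p : ℕ} (hp : p.Prime)
    (h : ∀ q : ℕ, q.Prime → q ≠ p → ∀ x y : K, PE p x → PE q y → y * x = x * y) :
    HasNormalPComplement p K := by
  have := Fact.mk hp
  exact H6.frobenius_of_automizer fun Q hQ g _ hg => mem_of_pe fun q hq hd y _ hy x hx =>
    (h q hq (fun e => hp.one_lt.ne' (Nat.eq_one_of_dvd_coprimes hg (e ▸ hd) dvd_rfl)) x y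
      (pe_of_mem hQ hx) hy).symm

/-- a `p`-element of `p`-power class size whose centralizer has central `p'`-elements -/
theorem nil_of_min {p k : ℕ} (hp : p.Prime) {u : K} (hu : PE p u)
    (hi : (centralizer ({u} : Set K)).index = p ^ k)
    (h : ∀ q : ℕ, q.Prime → q ≠ p → ∀ y ∈ centralizer ({u} : Set K), PE q y →
      centralizer ({u} : Set K) ≤ centralizer {y}) : HasNormalPComplement p K := by
  have := Fact.mk hp
  obtain ⟨S, hS, huS⟩ := exists_isSylowIn_ge (K := ⊤) hu.pgroup le_top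
  have h1 : u ∈ S.normalCore := fun g => by
    obtain ⟨a, ha, b, hb, rfl⟩ := exists_mul_of_coprime_index (K := S)
      (L := centralizer ({u} : Set K)) (by
        rw [hi]
        exact ((Nat.Prime.coprime_iff_not_dvd hp).mpr
          (relIndex_top_right S ▸ hS.not_dvd_relIndex)).symm.pow_right k) g
    have : a * b * u * (a * b)⁻¹ = a * u * a⁻¹ := by
      rw [mul_assoc a b u, mem_cen.mp hb]; group
    exact this ▸ mul_mem (mul_mem ha (huS (mem_zpowers u))) (inv_mem ha)
  set N := centralizer (S.normalCore : Set K) with hN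
  have h2 : N ≤ centralizer {u} := fun g hg => mem_cen.mpr (hg u h1).symm
  have h3 : ∀ q : ℕ, q.Prime → q ≠ p → ∀ y ∈ centralizer ({u} : Set K), PE q y → y ∈ N := by
    intro q hq hne y hy hye
    have := Fact.mk hq
    rw [← zpowers_le, hN, ← le_centralizer_iff]
    refine pxq hu.pgroup (hS.pgroup.to_le (normalCore_le S)) (not_dvd_card_of_pgroup hne hye.pgroup)
      (le_centralizer_iff.mp (centralizer_zpowers u ▸ zpowers_le.mpr hy)) le_normalizer_of_normal
      le_normalizer_of_normal ?_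
    rw [centralizer_zpowers, centralizer_zpowers]
    exact inf_le_right.trans (h q hq hne y hy hye)
  have h4 : ∀ q : ℕ, q.Prime → q ≠ p → ∀ y : K, PE q y → y ∈ centralizer ({u} : Set K) := by
    intro q hq hne y hye
    obtain ⟨j, hj⟩ := index_pow_of_pe h3
    by_contra h4
    have h5 := dvd_relIndex_of_pe hq hye (mem_top y) fun h5 => h4 (h2 h5)
    rw [relIndex_top_right, ← relIndex_mul_index h2, hj, hi, ← pow_add] at h5
    exact hne ((Nat.prime_dvd_prime_iff_eq hq hp).mp (hq.dvd_of_dvd_pow h5))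
  have h5 : ∀ x : K, (orderOf x).Coprime p → ∀ q, q ∣ orderOf x → q ≠ p := fun x hx q hd e =>
    hp.one_lt.ne' (Nat.eq_one_of_dvd_coprimes hx (e ▸ hd) dvd_rfl)
  refine H6.hasNormalPComplement_iff_mul.mpr fun x y hx hy => ?_
  have h6 : y ∈ centralizer (centralizer ({u} : Set K) : Set K) :=
    mem_of_pe fun q hq hd a _ ha g hg =>
      mem_cen.mp (h q hq (h5 y hy q hd) a (h4 q hq (h5 y hy q hd) a ha) ha hg)
  exact Nat.Coprime.coprime_dvd_left (Commute.orderOf_mul_dvd_mul_orderOf
    (h6 x (mem_of_pe fun q hq hd a _ ha => h4 q hq (h5 x hx q hd) a ha))) (hx.mul_left hy)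

end Cfsg.Agent.H7.CA
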