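import Cfsg.Agent.H8.SylowIn
import Cfsg.Agent.H4.Dihedral
import Cfsg.Agent.H7.TwoTools

set_option autoImplicit false

/-! The odd-product graph on involutions: every Sylow 2-subgroup meets every component. -/

namespace Cfsg.Agent.H7.OddGraph

open Subgroup H8

variable {G : Type*} [Group G]

/-- adjacency inside the subgroup `H` -/
def Adj (H : Subgroup G) (a b : G) : Prop :=
  a ∈ H ∧ b ∈ H ∧ a * a = 1 ∧ b * b = 1 ∧ Odd (orderOf (a * b))

/-- connectedness inside `H` -/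
def Conn (H : Subgroup G) : G → G → Prop := Relation.ReflTransGen (Adj H)

theorem Adj.symm {H : Subgroup G} {a b : G} (h : Adj H a b) : Adj H b a := by
  obtain ⟨h1, h2, h3, h4, h5⟩ := h
  refine ⟨h2, h1, h4, h3, ?_⟩
  have : b * a = (a * b)⁻¹ := by
    rw [mul_inv_rev, H4.inv_eq_of_mul_self h3, H4.inv_eq_of_mul_self h4]
  rwa [this, orderOf_inv]

theorem Adj.conj {H : Subgroup G} {a b g : G} (hg : g ∈ H) (h : Adj H a b) :
    Adj H (g * a * g⁻¹) (g * b * g⁻¹) := by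
  obtain ⟨h1, h2, h3, h4, h5⟩ := h
  refine ⟨H.mul_mem (H.mul_mem hg h1) (H.inv_mem hg), H.mul_mem (H.mul_mem hg h2) (H.inv_mem hg),
    ?_, ?_, ?_⟩
  · rw [conj_mul, h3]; simp
  · rw [conj_mul, h4]; simp
  · rw [conj_mul]
    have : orderOf (g * (a * b) * g⁻¹) = orderOf (a * b) :=
      (MulAut.conj g).orderOf_eq (a * b)
    rwa [this]

theorem Conn.refl (H : Subgroup G) (a : G) : Conn H a a := Relation.ReflTransGen.refl

theorem Conn.trans {H : Subgroup G} {a b c : G} (h : Conn H a b) (h' : Conn H b c) : Conn H a c :=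
  Relation.ReflTransGen.trans h h'

theorem Adj.conn {H : Subgroup G} {a b : G} (h : Adj H a b) : Conn H a b :=
  Relation.ReflTransGen.single h

theorem Conn.symm {H : Subgroup G} {a b : G} (h : Conn H a b) : Conn H b a := by
  induction h with
  | refl => exact Conn.refl _ _
  | tail _ h2 ih => exact h2.symm.conn.trans ih

theorem Conn.mono {H K : Subgroup G} (hHK : H ≤ K) {a b : G} (h : Conn H a b) : Conn K a b := by
  induction h with
  | refl => exact Conn.refl _ _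
  | tail _ h2 ih =>
    exact ih.trans (Adj.conn ⟨hHK h2.1, hHK h2.2.1, h2.2.2⟩)

theorem Conn.conj {H : Subgroup G} {a b g : G} (hg : g ∈ H) (h : Conn H a b) :
    Conn H (g * a * g⁻¹) (g * b * g⁻¹) := by
  induction h with
  | refl => exact Conn.refl _ _
  | tail _ h2 ih => exact ih.trans (h2.conj hg).conn

theorem Conn.exists_conj {H : Subgroup G} {a b : G} (h : Conn H a b) :
    ∃ g ∈ H, g * a * g⁻¹ = b := by
  induction h with
  | refl => exact ⟨1, H.one_mem, by simp⟩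
  | tail _ h2 ih =>
    obtain ⟨g, hg, rfl⟩ := ih
    obtain ⟨h1, h2, h3, h4, h5⟩ := h2
    obtain ⟨d, hd, hd'⟩ := H4.exists_conj_of_odd_orderOf_mul h3 h4 h5
    refine ⟨d * g, H.mul_mem (zpowers_le.mpr (H.mul_mem h1 h2) hd) hg, ?_⟩
    rw [← hd']; group

variable [Finite G]

theorem exists_adj_pgroup {H : Subgroup G} {x y : G} (hx : x ∈ H) (hy : y ∈ H) (hx2 : x * x = 1)
    (hy2 : y * y = 1) : ∃ y', Adj H y y' ∧ IsPGroup 2 (closure ({x, y'} : Set G)) := by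
  obtain ⟨a, ha, b, hb, hab, ⟨k, hk⟩, hodd⟩ := exists_two_odd_decomp (x * y)
  have hinv := H4.left_conj_mul_eq_inv hx2 hy2
  have ha' := H4.conj_eq_inv_of_mem_zpowers hinv ha
  have hx' := H4.inv_eq_of_mul_self hx2
  have haH : a ∈ H := zpowers_le.mpr (H.mul_mem hx hy) ha
  have h2 : (x * a) * (x * a) = 1 := by
    have : (x * a) * (x * a) = (x * a * x⁻¹) * a := by rw [hx']; group
    rw [this, ha']; simp
  refine ⟨x * a, ⟨hy, H.mul_mem hx haH, hy2, h2, ?_⟩, ?_⟩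
  · have hy' : y = x * (a * b) := by rw [hab, ← mul_assoc, hx2, one_mul]
    have hcomm : a * b = b * a := by
      obtain ⟨i, rfl⟩ := mem_zpowers_iff.mp ha
      obtain ⟨j, rfl⟩ := mem_zpowers_iff.mp hb
      rw [← zpow_add, ← zpow_add, add_comm]
    have : y * (x * a) = b⁻¹ := by
      have e : y * (x * a) = (x * (x * y) * x⁻¹) * a := by
        rw [hx', ← mul_assoc x x y, hx2, one_mul, mul_assoc]
      rw [e, hinv, ← hab, mul_inv_rev]; group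
    rw [this, orderOf_inv]; exact hodd
  · apply H4.isPGroup_two_closure_involutions hx2 h2
    exact ⟨k, by rw [← mul_assoc, hx2, one_mul, hk]⟩

/-- normalizer growth inside a 2-group, for a normal subset `X` -/
theorem exists_normalizes {p : ℕ} [Fact p.Prime] {S U : Subgroup G} (hS : IsPGroup p S)
    (hUS : U ≤ S) {X : Set G} (hX : ∀ g ∈ S, ∀ x ∈ X, g * x * g⁻¹ ∈ X)
    (hne : ¬ X ∩ S ⊆ U) :
    ∃ y ∈ X, y ∈ S ∧ y ∉ U ∧ ∀ z ∈ X, z ∈ U → y * z * y⁻¹ ∈ U := by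
  classical
  obtain ⟨V, ⟨hUV, hVS, hXV⟩, hmax⟩ := Set.Finite.exists_maximal
    (s := {V : Subgroup G | U ≤ V ∧ V ≤ S ∧ X ∩ V ⊆ U}) (Set.toFinite _)
    ⟨U, le_rfl, hUS, Set.inter_subset_right⟩
  have hlt : V < S := lt_of_le_of_ne hVS (by rintro rfl; exact hne hXV)
  have h2 := lt_inf_normalizer_of_pgroup hS hlt
  have h3 : ¬ X ∩ (S ⊓ normalizer (V : Set G) : Subgroup G) ⊆ U := by
    intro h
    exact h2.not_ge (hmax ⟨hUV.trans h2.le, inf_le_left, h⟩ h2.le)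
  obtain ⟨y, ⟨hyX, hyS, hyN⟩, hyU⟩ := Set.not_subset.mp h3
  refine ⟨y, hyX, hyS, hyU, fun z hz hzU => hXV ⟨hX y hyS z hz, ?_⟩⟩
  exact (mem_normalizer_iff.mp hyN z).mp (hUV hzU)

/-- the `H`-class of `x₀` -/
def cls (H : Subgroup G) (x₀ : G) : Set G := {z | ∃ g ∈ H, g * x₀ * g⁻¹ = z}

/-- elements of the class whose component meets `Y` -/
def cmp (H : Subgroup G) (x₀ : G) (Y : Subgroup G) : Set G :=
  {z | z ∈ cls H x₀ ∧ ∃ y ∈ Y, Conn H z y}

omit [Finite G] in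
theorem cls_conj {H : Subgroup G} {x₀ g z : G} (hg : g ∈ H) (hz : z ∈ cls H x₀) :
    g * z * g⁻¹ ∈ cls H x₀ := by
  obtain ⟨h, hh, rfl⟩ := hz
  exact ⟨g * h, H.mul_mem hg hh, by group⟩

omit [Finite G] in
theorem cls_conn {H : Subgroup G} {x₀ y z : G} (hz : z ∈ cls H x₀) (h : Conn H z y) :
    y ∈ cls H x₀ := by
  obtain ⟨g, hg, rfl⟩ := h.exists_conj
  exact cls_conj hg hz

omit [Finite G] in
theorem cls_sq {H : Subgroup G} {x₀ z : G} (h0 : x₀ * x₀ = 1) (hz : z ∈ cls H x₀) : z * z = 1 := by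
  obtain ⟨h, hh, rfl⟩ := hz
  rw [conj_mul, h0]; simp

omit [Finite G] in
theorem cls_mem {H : Subgroup G} {x₀ z : G} (h0 : x₀ ∈ H) (hz : z ∈ cls H x₀) : z ∈ H := by
  obtain ⟨h, hh, rfl⟩ := hz
  exact H.mul_mem (H.mul_mem hh h0) (H.inv_mem hh)

omit [Finite G] in
theorem cls_exists_conj {H : Subgroup G} {x₀ y z : G} (hy : y ∈ cls H x₀) (hz : z ∈ cls H x₀) :
    ∃ g ∈ H, g * y * g⁻¹ = z := by
  obtain ⟨h, hh, rfl⟩ := hz
  obtain ⟨k, hk, rfl⟩ := hy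
  exact ⟨h * k⁻¹, H.mul_mem hh (H.inv_mem hk), by group⟩

omit [Finite G] in
theorem cmp_mono {H : Subgroup G} {x₀ : G} {Y Z : Subgroup G} (h : cls H x₀ ∩ Y ⊆ Z) :
    cmp H x₀ Y ⊆ cmp H x₀ Z := by
  rintro z ⟨hz, y, hy, hc⟩
  exact ⟨hz, y, h ⟨cls_conn hz hc, hy⟩, hc⟩

omit [Finite G] in
theorem ncard_cls_inf {H : Subgroup G} {x₀ : G} {Y : Subgroup G} {g : G} (hg : g ∈ H) :
    (cls H x₀ ∩ (cj g Y : Subgroup G)).ncard = (cls H x₀ ∩ Y).ncard := by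
  have : cls H x₀ ∩ (cj g Y : Subgroup G) = (fun z => g * z * g⁻¹) '' (cls H x₀ ∩ Y) := by
    ext z
    constructor
    · rintro ⟨h1, h2⟩
      refine ⟨g⁻¹ * z * g, ⟨?_, mem_cj.mp h2⟩, by simp only; group⟩
      simpa using cls_conj (H.inv_mem hg) h1
    · rintro ⟨w, ⟨h1, h2⟩, rfl⟩
      exact ⟨cls_conj hg h1, conj_mem_cj g h2⟩
  rw [this, Set.ncard_image_of_injective _ (fun a b h => by simpa using h)]

theorem mem_normalizer_cmp {H : Subgroup G} {x₀ : G} {Y : Subgroup G} {g : G} (hg : g ∈ H)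
    (h : ∀ z ∈ cls H x₀, z ∈ Y → g * z * g⁻¹ ∈ Y) : g ∈ normalizer (cmp H x₀ Y) := by
  apply mem_normalizer_fintype
  rintro z ⟨hz, y, hy, hc⟩
  exact ⟨cls_conj hg hz, _, h y (cls_conn hz hc) hy, hc.conj hg⟩

/-- Every Sylow 2-subgroup of `H` meets every component. -/
theorem exists_conn_mem_sylow (H : Subgroup G) :
    ∀ x ∈ H, x * x = 1 → ∀ R, IsSylowIn 2 R H → ∃ y ∈ R, Conn H x y := by
  classical
  induction H using WellFoundedLT.induction with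
  | ind H IH =>
  intro x₀ h0H h0
  -- components meeting a Sylow subgroup of a proper subgroup
  have hT : ∀ T R : Subgroup G, T < H → IsSylowIn 2 R T → cmp H x₀ R = cmp H x₀ T := by
    intro T R hTH hR
    refine Set.Subset.antisymm (cmp_mono fun z hz => hR.le hz.2) ?_
    rintro z ⟨hz, y, hy, hc⟩
    obtain ⟨y', hy', hc'⟩ := IH T hTH y hy (cls_sq h0 (cls_conn hz hc)) R hR
    exact ⟨hz, y', hy', hc.trans (hc'.mono hTH.le)⟩
  have hcard : ∀ T R₁ R₂ : Subgroup G, T ≤ H → IsSylowIn 2 R₁ T → IsSylowIn 2 R₂ T →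
      (cls H x₀ ∩ R₁).ncard = (cls H x₀ ∩ R₂).ncard := by
    intro T R₁ R₂ hTH h1 h2
    obtain ⟨k, hk, rfl⟩ := h1.exists_cj_eq h2
    rw [ncard_cls_inf (hTH hk)]
  have key : ∀ k : ℕ, ∀ T R₁ R₂ S₁ S₂ : Subgroup G, T < H → IsSylowIn 2 R₁ T → IsSylowIn 2 R₂ T →
      IsSylowIn 2 S₁ H → IsSylowIn 2 S₂ H → R₁ ≤ S₁ → R₂ ≤ S₂ → 0 < (cls H x₀ ∩ R₁).ncard →
      Nat.card G < (cls H x₀ ∩ R₁).ncard + k → cmp H x₀ S₁ = cmp H x₀ S₂ := by
    intro k
    induction k with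
    | zero =>
      intro T R₁ R₂ S₁ S₂ _ _ _ _ _ _ _ _ hk
      exact absurd (Set.ncard_le_card (cls H x₀ ∩ R₁)) (by omega)
    | succ k ih =>
      intro T R₁ R₂ S₁ S₂ hTH hR₁ hR₂ hS₁ hS₂ hRS₁ hRS₂ hpos hk
      have e₁ := hT T R₁ hTH hR₁
      have e₂ := hT T R₂ hTH hR₂
      have c₁ := hcard T R₁ R₂ hTH.le hR₁ hR₂
      have c₂ := hcard H S₁ S₂ le_rfl hS₁ hS₂
      have sub₁ : cls H x₀ ∩ R₁ ⊆ cls H x₀ ∩ S₁ := Set.inter_subset_inter_right _ hRS₁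
      have sub₂ : cls H x₀ ∩ R₂ ⊆ cls H x₀ ∩ S₂ := Set.inter_subset_inter_right _ hRS₂
      have easy : cls H x₀ ∩ S₁ ⊆ R₁ → cls H x₀ ∩ S₂ ⊆ R₂ → cmp H x₀ S₁ = cmp H x₀ S₂ := by
        intro h1 h2
        have a₁ : cmp H x₀ S₁ = cmp H x₀ R₁ :=
          Set.Subset.antisymm (cmp_mono h1) (cmp_mono fun z hz => hRS₁ hz.2)
        have a₂ : cmp H x₀ S₂ = cmp H x₀ R₂ :=
          Set.Subset.antisymm (cmp_mono h2) (cmp_mono fun z hz => hRS₂ hz.2)
        rw [a₁, a₂, e₁, e₂]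
      by_cases h1 : cls H x₀ ∩ S₁ ⊆ R₁
      · refine easy h1 ?_
        have : cls H x₀ ∩ S₁ = cls H x₀ ∩ R₁ :=
          Set.Subset.antisymm (fun z hz => ⟨hz.1, h1 hz⟩) sub₁
        have h3 : cls H x₀ ∩ R₂ = cls H x₀ ∩ S₂ :=
          Set.eq_of_subset_of_ncard_le sub₂ (by rw [← c₂, ← c₁, this])
        rw [← h3]; exact Set.inter_subset_right
      by_cases h2 : cls H x₀ ∩ S₂ ⊆ R₂
      · refine easy ?_ h2
        have : cls H x₀ ∩ S₂ = cls H x₀ ∩ R₂ :=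
          Set.Subset.antisymm (fun z hz => ⟨hz.1, h2 hz⟩) sub₂
        have h3 : cls H x₀ ∩ R₁ = cls H x₀ ∩ S₁ :=
          Set.eq_of_subset_of_ncard_le sub₁ (by rw [c₂, c₁, this])
        rw [← h3]; exact Set.inter_subset_right
      obtain ⟨y₁, hy₁X, hy₁S, hy₁R, hy₁⟩ := exists_normalizes hS₁.pgroup hRS₁
        (X := cls H x₀) (fun g hg x hx => cls_conj (hS₁.le hg) hx) h1
      obtain ⟨y₂, hy₂X, hy₂S, hy₂R, hy₂⟩ := exists_normalizes hS₂.pgroup hRS₂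
        (X := cls H x₀) (fun g hg x hx => cls_conj (hS₂.le hg) hx) h2
      set G₁ : Subgroup G := H ⊓ normalizer (cmp H x₀ T) with hG₁
      have hTG : T ≤ G₁ := fun g hg => ⟨hTH.le hg, mem_normalizer_cmp (hTH.le hg)
        fun z _ hz => T.mul_mem (T.mul_mem hg hz) (T.inv_mem hg)⟩
      have hy₁G : y₁ ∈ G₁ := ⟨hS₁.le hy₁S, e₁ ▸ mem_normalizer_cmp (hS₁.le hy₁S) hy₁⟩
      have hy₂G : y₂ ∈ G₁ := ⟨hS₂.le hy₂S, e₂ ▸ mem_normalizer_cmp (hS₂.le hy₂S) hy₂⟩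
      rcases (inf_le_left : G₁ ≤ H).eq_or_lt with hGH | hGH
      · -- the set of components is everything
        obtain ⟨z₀, hz₀X, hz₀R⟩ := (Set.ncard_pos (Set.toFinite _)).mp hpos
        have hz₀ : z₀ ∈ cmp H x₀ T := ⟨hz₀X, z₀, hR₁.le hz₀R, Conn.refl _ _⟩
        have hall : cls H x₀ ⊆ cmp H x₀ T := by
          intro z hz
          obtain ⟨g, hg, rfl⟩ := cls_exists_conj hz₀X hz
          have hg' : g ∈ G₁ := hGH.ge hg
          exact (mem_set_normalizer_iff.mp hg'.2 z₀).mp hz₀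
        have a₁ : cmp H x₀ S₁ = cls H x₀ := Set.Subset.antisymm (fun z hz => hz.1)
          (hall.trans (e₁ ▸ cmp_mono fun z hz => hRS₁ hz.2))
        have a₂ : cmp H x₀ S₂ = cls H x₀ := Set.Subset.antisymm (fun z hz => hz.1)
          (hall.trans (e₂ ▸ cmp_mono fun z hz => hRS₂ hz.2))
        rw [a₁, a₂]
      obtain ⟨R₁', hR₁', hle₁⟩ := exists_isSylowIn_ge (K := G₁) (Q := S₁ ⊓ G₁)
        (hS₁.pgroup.to_le inf_le_left) inf_le_right
      obtain ⟨R₂', hR₂', hle₂⟩ := exists_isSylowIn_ge (K := G₁) (Q := S₂ ⊓ G₁)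
        (hS₂.pgroup.to_le inf_le_left) inf_le_right
      obtain ⟨S₁', hS₁', hle₁'⟩ := exists_isSylowIn_ge hR₁'.pgroup (hR₁'.le.trans hGH.le)
      obtain ⟨S₂', hS₂', hle₂'⟩ := exists_isSylowIn_ge hR₂'.pgroup (hR₂'.le.trans hGH.le)
      have grow : ∀ (R V : Subgroup G) (y : G), R ≤ V → y ∈ cls H x₀ → y ∈ V → y ∉ R →
          (cls H x₀ ∩ R).ncard < (cls H x₀ ∩ V).ncard := by
        intro R V y hRV hyX hyV hyR
        apply Set.ncard_lt_ncard _ (Set.toFinite _)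
        exact ⟨Set.inter_subset_inter_right _ hRV, fun h => hyR (h ⟨hyX, hyV⟩).2⟩
      have self : ∀ (R S S' : Subgroup G) (y : G), IsSylowIn 2 S H → IsSylowIn 2 S' H →
          R ≤ S → R ≤ S' → y ∈ cls H x₀ → y ∈ S → y ∈ S' → y ∉ R →
          (cls H x₀ ∩ R).ncard = (cls H x₀ ∩ R₁).ncard → cmp H x₀ S = cmp H x₀ S' := by
        intro R S S' y hS hS' h h' hyX hyS hyS' hyR hc
        rcases (inf_le_left.trans hS.le : S ⊓ S' ≤ H).eq_or_lt with he | he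
        · have a : S = H := le_antisymm hS.le (he ▸ inf_le_left)
          have b : S' = H := le_antisymm hS'.le (he ▸ inf_le_right)
          rw [a, b]
        have hs : IsSylowIn 2 (S ⊓ S') (S ⊓ S') :=
          ⟨le_rfl, hS.pgroup.to_le inf_le_left, fun Q h1 _ h2 => le_antisymm h1 h2⟩
        have := grow R (S ⊓ S') y (le_inf h h') hyX ⟨hyS, hyS'⟩ hyR
        exact ih _ _ _ S S' he hs hs hS hS' inf_le_left inf_le_right (by omega) (by omega)
      have r₁ : R₁ ≤ R₁' := (le_inf hRS₁ (hR₁.le.trans hTG)).trans hle₁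
      have r₂ : R₂ ≤ R₂' := (le_inf hRS₂ (hR₂.le.trans hTG)).trans hle₂
      have g₁ := grow R₁ R₁' y₁ r₁ hy₁X (hle₁ ⟨hy₁S, hy₁G⟩) hy₁R
      rw [self R₁ S₁ S₁' y₁ hS₁ hS₁' hRS₁ (r₁.trans hle₁') hy₁X hy₁S
          (hle₁' (hle₁ ⟨hy₁S, hy₁G⟩)) hy₁R rfl,
        self R₂ S₂ S₂' y₂ hS₂ hS₂' hRS₂ (r₂.trans hle₂') hy₂X hy₂S
          (hle₂' (hle₂ ⟨hy₂S, hy₂G⟩)) hy₂R c₁.symm]
      exact ih G₁ R₁' R₂' S₁' S₂' hGH hR₁' hR₂' hS₁' hS₂' hle₁' hle₂' (by omega) (by omega)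
  intro S hS
  have hx₀ : x₀ ∈ cls H x₀ := ⟨1, H.one_mem, by simp⟩
  -- an element of the class inside `S`
  have hz : IsPGroup 2 (zpowers x₀) := by
    apply IsPGroup.of_card_dvd_pow (n := 1)
    rw [Nat.card_zpowers]
    exact orderOf_dvd_of_pow_eq_one (by rw [pow_one, pow_two, h0])
  obtain ⟨S₀, hS₀, hle₀⟩ := exists_isSylowIn_ge hz (zpowers_le.mpr h0H)
  obtain ⟨g, hg, rfl⟩ := hS₀.exists_cj_eq hS
  set x := g * x₀ * g⁻¹ with hx
  have hxX : x ∈ cls H x₀ := cls_conj hg hx₀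
  have hxS : x ∈ cj g S₀ := conj_mem_cj g (hle₀ (mem_zpowers _))
  obtain ⟨y', hadj, hp⟩ := exists_adj_pgroup (cls_mem h0H hxX) h0H (cls_sq h0 hxX) h0
  obtain ⟨S₂, hS₂, hle₂⟩ := exists_isSylowIn_ge (K := H) hp (by
    rw [closure_le]; rintro w (rfl | rfl)
    · exact cls_mem h0H hxX
    · exact hadj.2.1)
  have hmem : x₀ ∈ cmp H x₀ S₂ :=
    ⟨hx₀, y', hle₂ (subset_closure (by simp)), hadj.conn⟩
  suffices h : cmp H x₀ (cj g S₀) = cmp H x₀ S₂ by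
    rw [← h] at hmem
    exact hmem.2
  rcases (inf_le_left.trans hS.le : cj g S₀ ⊓ S₂ ≤ H).eq_or_lt with he | he
  · have a : cj g S₀ = H := le_antisymm hS.le (he ▸ inf_le_left)
    have b : S₂ = H := le_antisymm hS₂.le (he ▸ inf_le_right)
    rw [a, b]
  have hs : IsSylowIn 2 (cj g S₀ ⊓ S₂) (cj g S₀ ⊓ S₂) :=
    ⟨le_rfl, hS.pgroup.to_le inf_le_left, fun Q h1 _ h2 => le_antisymm h1 h2⟩
  have hpos : 0 < (cls H x₀ ∩ (cj g S₀ ⊓ S₂ : Subgroup G)).ncard :=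
    (Set.ncard_pos (Set.toFinite _)).mpr ⟨x, hxX, hxS, hle₂ (subset_closure (by simp))⟩
  exact key (Nat.card G) _ _ _ _ _ he hs hs hS hS₂ inf_le_left inf_le_right hpos (by omega)

/-- In a finite simple group conjugate involutions are connected. -/
theorem conn_of_isConj [IsSimpleGroup G] {x y : G} (hx : orderOf x = 2) (h : IsConj x y) :
    Conn ⊤ x y := by
  have hx2 := H4.mul_self_of_orderOf_two hx
  let K : Subgroup G :=
    { carrier := {g | ∀ z, z * z = 1 → Conn ⊤ z (g * z * g⁻¹)}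
      one_mem' := fun z _ => by simpa using Conn.refl ⊤ z
      mul_mem' := fun {a b} ha hb z hz => by
        have h1 := hb z hz
        have h2 := ha (b * z * b⁻¹) (by rw [conj_mul, hz]; simp)
        have : a * b * z * (a * b)⁻¹ = a * (b * z * b⁻¹) * a⁻¹ := by group
        rw [this]; exact h1.trans h2
      inv_mem' := fun {a} ha z hz => by
        have h1 := (ha (a⁻¹ * z * a⁻¹⁻¹) (by rw [conj_mul, hz]; simp)).symm
        have : a * (a⁻¹ * z * a⁻¹⁻¹) * a⁻¹ = z := by group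
        rwa [this] at h1 }
  have hK : K.Normal := ⟨fun n hn g z hz => by
    have h1 := (hn (g⁻¹ * z * g⁻¹⁻¹) (by rw [conj_mul, hz]; simp)).conj (mem_top g)
    have e1 : g * (g⁻¹ * z * g⁻¹⁻¹) * g⁻¹ = z := by group
    have e2 : g * (n * (g⁻¹ * z * g⁻¹⁻¹) * n⁻¹) * g⁻¹ = g * n * g⁻¹ * z * (g * n * g⁻¹)⁻¹ := by
      group
    rwa [e1, e2] at h1⟩
  obtain ⟨S, hS⟩ := exists_isSylowIn 2 (⊤ : Subgroup G)
  have hS1 : S ≠ ⊥ := hS.ne_bot (by
    rw [card_top, ← hx]; exact orderOf_dvd_natCard x)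
  have : Nontrivial S := (nontrivial_iff_ne_bot S).mpr hS1
  have : Nontrivial (center S) := hS.pgroup.center_nontrivial
  obtain ⟨c, hc1⟩ := exists_ne (1 : center S)
  have hcK : ((c : S) : G) ∈ K := by
    intro z hz
    obtain ⟨y, hy, hc⟩ := exists_conn_mem_sylow ⊤ z (mem_top _) hz S hS
    have h1 := hc.conj (mem_top ((c : S) : G))
    have h2 : ((c : S) : G) * y * ((c : S) : G)⁻¹ = y := by
      have := congrArg Subtype.val (mem_center_iff.mp c.2 ⟨y, hy⟩)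
      simp only [coe_mul] at this
      rw [← this]; simp
    rw [h2] at h1
    exact hc.trans h1.symm
  have hKtop : K = ⊤ := (hK.eq_bot_or_eq_top).resolve_left fun hb => hc1 (by
    rw [hb, mem_bot] at hcK
    exact Subtype.ext (Subtype.ext hcK))
  obtain ⟨g, rfl⟩ := isConj_iff.mp h
  exact (hKtop.ge (mem_top g)) x hx2

end Cfsg.Agent.H7.OddGraph
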